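import Cfsg.Agent.PrF.Defs

/-!
Pronormality: the element `w = g n`, Witt's lemma, closures.  `F = Fx K Ω`.  Subgroups to feed into `Prn`: `fixingSubgroup G S`
(`mem_fixingSubgroup_iff`), `stabilizer G (O : Set Ω)`.
-/

namespace Cfsg.Agent.PrF
open MulAction Subgroup
open scoped Pointwise

universe u v

variable {G : Type u} [Group G] {Ω : Type v} [MulAction G Ω] {K R : Subgroup G}

theorem mem_Fx {x : Ω} : x ∈ Fx K Ω ↔ ∀ k ∈ K, k • x = x := Iff.rfl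

theorem mem_orb {x y : Ω} : y ∈ orb R x ↔ ∃ g ∈ R, g • x = y := Iff.rfl

theorem self_mem_orb (R : Subgroup G) (x : Ω) : x ∈ orb R x := by
  exact ⟨1, one_mem R, one_smul _ _⟩

theorem tr_orb (R : Subgroup G) (x : Ω) : Tr R (orb R x) := by
  refine ⟨?_, ?_⟩
  · rintro g hg _ ⟨a, ha, rfl⟩
    exact ⟨g * a, mul_mem hg ha, mul_smul _ _ _⟩
  · rintro _ ⟨a, ha, rfl⟩ _ ⟨b, hb, rfl⟩
    exact ⟨b * a⁻¹, mul_mem hb (inv_mem ha), by rw [mul_smul, inv_smul_smul]⟩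

theorem orb_eq {x y : Ω} (h : y ∈ orb R x) : orb R y = orb R x := by
  exact Set.ext fun z => ⟨fun ⟨g, hg, e⟩ => e ▸ (tr_orb R x).1 g hg y h, (tr_orb R x).2 y h z⟩

theorem disjoint_orb {x y : Ω} (h : y ∉ orb R x) : Disjoint (orb R x) (orb R y) := by
  exact Set.disjoint_left.2 fun z a b => h (orb_eq a ▸ (orb_eq b).symm ▸ self_mem_orb R y)

theorem Inv.orb_subset {Γ : Set Ω} (h : Inv R Γ) {x : Ω} (hx : x ∈ Γ) : orb R x ⊆ Γ := by
  exact fun y ⟨g, hg, e⟩ => e ▸ h g hg x hx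

theorem Inv.mono {Γ : Set Ω} (h : Inv R Γ) (hK : K ≤ R) : Inv K Γ := by
  exact fun g hg => h g (hK hg)

theorem Inv.diff {Γ Y : Set Ω} (h : Inv R Γ) (h' : Inv R Y) : Inv R (Γ \ Y) := by
  exact fun g hg x hx => ⟨h g hg x hx.1, fun k => hx.2 (inv_smul_smul g x ▸ h' _ (inv_mem hg) _ k)⟩

theorem Inv.union {Γ Y : Set Ω} (h : Inv R Γ) (h' : Inv R Y) : Inv R (Γ ∪ Y) := by
  exact fun g hg x hx => hx.imp (h g hg x) (h' g hg x)

theorem smul_eq_of {O : Set Ω} {a : G} (h : ∀ x ∈ O, a • x ∈ O) (h' : ∀ x ∈ O, a⁻¹ • x ∈ O) : a • O = O :=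
  (Set.smul_set_subset_iff.2 h).antisymm fun x hx => Set.mem_smul_set_iff_inv_smul_mem.2 (h' x hx)

theorem Inv.smul_eq {Γ : Set Ω} (h : Inv R Γ) {g : G} (hg : g ∈ R) : g • Γ = Γ := by
  exact smul_eq_of (h g hg) (h _ (inv_mem hg))

theorem inv_Fx : Inv K (Fx K Ω) := by
  exact fun g hg x hx => (hx g hg).symm ▸ hx

theorem inv_compl_fixing (S : Set Ω) : Inv (fixingSubgroup G S) Sᶜ := by
  exact fun g hg x hx k => hx (smul_left_cancel g ((mem_fixingSubgroup_iff G).1 hg _ k) ▸ k)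

theorem le_fixing {S : Set Ω} (h : S ⊆ Fx K Ω) : K ≤ fixingSubgroup G S := by
  exact fun k hk => (mem_fixingSubgroup_iff G).2 fun x hx => h hx k hk

theorem mem_smul_Fx {g : G} {x : Ω} : x ∈ g • Fx K Ω ↔ ∀ k ∈ K, (g * k * g⁻¹) • x = x := by
  simp only [Set.mem_smul_set_iff_inv_smul_mem, mem_Fx, mul_smul, eq_inv_smul_iff]

theorem norm_mem_Fx {n : G} (hn : n ∈ normalizer (K : Set G)) {x : Ω} : n • x ∈ Fx K Ω ↔ x ∈ Fx K Ω := by
  have k : ∀ n ∈ normalizer (K : Set G), ∀ x ∈ Fx K Ω, n • x ∈ Fx K Ω := fun n hn x hx k hk => by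
    have := hx _ ((mem_normalizer_iff''.1 hn k).1 hk)
    rwa [mul_smul, mul_smul, inv_smul_eq_iff] at this
  exact ⟨fun h => inv_smul_smul n x ▸ k _ (inv_mem hn) _ h, k n hn x⟩

theorem norm_smul_Fx {n : G} (hn : n ∈ normalizer (K : Set G)) : n • Fx K Ω = Fx K Ω := by
  exact smul_eq_of (fun _ => (norm_mem_Fx hn).2) fun _ => (norm_mem_Fx (inv_mem hn)).2

/-- `w = g n`. -/
theorem Prn.exists_w (h : Prn K) (g : G) : ∃ w : G, w • Fx K Ω = g • Fx K Ω ∧ (∀ x ∈ Fx K Ω, x ∈ g • Fx K Ω → w • x = x) ∧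
    ∀ O : Set Ω, Inv K O → (∀ k ∈ K, ∀ x ∈ O, (g * k * g⁻¹) • x ∈ O) → w • O = O := by
  obtain ⟨n, hn, H⟩ := h g
  exact ⟨g * n, by rw [mul_smul, norm_smul_Fx hn], fun x h1 h2 => H (stabilizer G x) h1 (mem_smul_Fx.1 h2),
    fun O h1 h2 => H (stabilizer G O) (fun k hk => h1.smul_eq hk) fun k hk =>
      smul_eq_of (h2 k hk) (by rw [conj_inv]; exact h2 _ (inv_mem hk))⟩

/-- Witt's lemma: `g n₀` fixes `F ∩ g F` pointwise and lies in `R`; take `n = n₀⁻¹`. -/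
theorem Prn.witt (h : Prn K) (hK : K ≤ R) {g : G} (hg : g ∈ R) :
    ∃ n ∈ R, n ∈ normalizer (K : Set G) ∧ ∀ x ∈ Fx K Ω, g • x ∈ Fx K Ω → n • x = g • x := by
  obtain ⟨n, hn, H⟩ := h g
  refine ⟨n⁻¹, inv_mem ((R.mul_mem_cancel_left hg).1 (H R hK fun k hk => mul_mem (mul_mem hg (hK hk)) (inv_mem hg))),
    inv_mem hn, fun x h1 h2 => ?_⟩
  have : (g * n) • g • x = g • x := H (stabilizer G (g • x)) h2 (mem_smul_Fx.1 (Set.smul_mem_smul_set h1))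
  rw [mul_smul, smul_left_cancel_iff] at this
  exact inv_smul_eq_iff.2 this.symm

/-- `w⁻¹ O = O ⊆ F`. -/
theorem Prn.not_subset (h : Prn K) {O : Set Ω} (hO : Inv K O) (hn : O.Nonempty) (hd : Disjoint O (Fx K Ω)) (g : G) :
    ¬ O ⊆ g • Fx K Ω := by
  intro k
  obtain ⟨w, h1, -, h2⟩ := h.exists_w (Ω := Ω) g
  obtain ⟨x, hx⟩ := hn
  have := k (h2 O hO (fun a ha y hy => (mem_smul_Fx.1 (k hy) a ha).symm ▸ hy) ▸ Set.smul_mem_smul_set hx)
  exact Set.disjoint_left.1 hd hx (Set.smul_mem_smul_set_iff.1 (h1 ▸ this :))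

/-- `w` stabilises `O = g F`. -/
theorem Prn.eq_of_inv (h : Prn K) {g : G} (hO : Inv K (g • Fx K Ω)) : g • Fx K Ω = Fx K Ω := by
  obtain ⟨w, h1, -, h2⟩ := h.exists_w (Ω := Ω) g
  exact smul_left_cancel w ((h2 _ hO fun a ha y hy => (mem_smul_Fx.1 hy a ha).symm ▸ hy).trans h1.symm)

theorem subset_cl (K : Subgroup G) (S : Set Ω) : S ⊆ cl K S := by
  exact fun _ hy _ h => h hy

theorem cl_mono (K : Subgroup G) {S T : Set Ω} (h : S ⊆ T) : cl K S ⊆ cl K T := by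
  exact fun _ hy g k => hy g (h.trans k)

theorem cl_subset {S : Set Ω} {g : G} (h : S ⊆ g • Fx K Ω) : cl K S ⊆ g • Fx K Ω := by
  exact fun _ hy => hy g h

theorem cl_subset_Fx {S : Set Ω} (h : S ⊆ Fx K Ω) : cl K S ⊆ Fx K Ω := by
  exact fun _ hy => one_smul G (Fx K Ω) ▸ hy 1 ((one_smul G (Fx K Ω)).symm ▸ h)

theorem cl_cl (K : Subgroup G) {S T : Set Ω} (h : S ⊆ cl K T) : cl K S ⊆ cl K T := by
  exact fun _ hy g k => hy g (h.trans (cl_subset k))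

theorem smul_cl (K : Subgroup G) (g : G) (S : Set Ω) : g • cl K S = cl K (g • S) := by
  ext y
  rw [Set.mem_smul_set_iff_inv_smul_mem]
  refine ⟨fun h a k => ?_, fun h a k => ?_⟩
  · have := h (g⁻¹ * a) (by rwa [mul_smul, ← Set.smul_set_subset_iff_subset_inv_smul_set])
    rwa [mul_smul, Set.smul_mem_smul_set_iff] at this
  · have := h (g * a) (by rw [mul_smul]; exact Set.smul_set_mono k)
    rwa [mul_smul, Set.mem_smul_set_iff_inv_smul_mem] at this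

/-- The members containing `S` are the `w F`, `w` fixing `S` pointwise (`exists_w`). -/
theorem Prn.mem_cl (h : Prn K) {S : Set Ω} (hS : S ⊆ Fx K Ω) {y : Ω} :
    y ∈ cl K S ↔ orb (fixingSubgroup G S) y ⊆ Fx K Ω := by
  refine ⟨fun hy _ ⟨a, ha, e⟩ => e ▸ Set.mem_inv_smul_set_iff.1 (hy a⁻¹ fun s hs =>
    Set.mem_inv_smul_set_iff.2 (((mem_fixingSubgroup_iff G).1 ha s hs).symm ▸ hS hs)), fun hy g k => ?_⟩
  obtain ⟨w, h1, h2, -⟩ := h.exists_w (Ω := Ω) g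
  exact h1 ▸ Set.mem_smul_set_iff_inv_smul_mem.2
    (hy ⟨w⁻¹, inv_mem ((mem_fixingSubgroup_iff G).2 fun s hs => h2 s (hS hs) (k hs)), rfl⟩)

/-- Conjugation: `K.subgroupOf R` is pronormal in `↥R` (apply `h` to `R' ⊓ R`-type subgroups `R'.map R.subtype`). -/
theorem Prn.subgroupOf (h : Prn K) (hK : K ≤ R) : Prn (K.subgroupOf R) := by
  intro g
  obtain ⟨n, hn, H⟩ := h g
  refine ⟨⟨n, (R.mul_mem_cancel_left g.2).1 (H R hK fun k hk => mul_mem (mul_mem g.2 (hK hk)) (inv_mem g.2))⟩,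
    mem_normalizer_iff.2 fun a => mem_normalizer_iff.1 hn a, fun R' h1 h2 => ?_⟩
  exact (mem_map_iff_mem R.subtype_injective).1 (H (R'.map R.subtype) (fun k hk => ⟨⟨k, hK hk⟩, h1 hk, rfl⟩)
    fun k hk => ⟨_, h2 ⟨k, hK hk⟩ hk, rfl⟩)

theorem prn_of (h : ∀ g : G, ∃ w ∈ K ⊔ K.map (MulAut.conj g).toMonoidHom,
    K.map (MulAut.conj w).toMonoidHom = K.map (MulAut.conj g).toMonoidHom) : Prn K := by
  intro g
  obtain ⟨w, h1, h2⟩ := h g
  refine ⟨g⁻¹ * w, mem_normalizer_iff.2 fun x => ?_, fun R a b => ?_⟩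
  · have := SetLike.ext_iff.1 h2 (w * x * w⁻¹)
    rw [mem_map_equiv, mem_map_equiv] at this
    simpa [mul_assoc] using this
  · rw [mul_inv_cancel_left]
    exact sup_le a (map_le_iff_le_comap.2 b) h1

end Cfsg.Agent.PrF
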