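import Cfsg.Agent.PrF.BochA

/-!
A Bochert-type bound: a 4-transitive group with a small support contains the alternating group.  Read the signatures of `PrF/BochA`.
`S = u.support`, `m = #S`, `n = card α`, `a ∈ S`, `b = u a`, `z ∉ S`, `y ∈ S`, `𝒢 = Gs X z y a (u a)`.  Sums over `g` are swapped with sums over points by
`Finset.sum_card_bipartiteAbove_eq_sum_card_bipartiteBelow` (or `card_filter` and `sum_comm`).
-/

namespace Cfsg.Agent.PrF
open MulAction Equiv Finset

variable {α : Type*} [Fintype α] [DecidableEq α] {X : Subgroup (Perm α)} {c : ℕ} {z y a : α} {u : Perm α}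

omit [Fintype α] [DecidableEq α] in
theorem bochC_swap (G : Finset (Perm α)) (S : Finset α) (P : Perm α → α → Prop) [∀ g q, Decidable (P g q)] :
    ∑ g ∈ G, (S.filter fun q => P g q).card = ∑ q ∈ S, (G.filter fun g => P g q).card := by
  simp only [card_filter]
  exact sum_comm

theorem bochC_card (ha : a ∈ u.support) : ((u.support.erase a).erase (u a)).card = u.support.card - 2 := by
  rw [card_erase_of_mem (mem_erase.2 ⟨Perm.mem_support.1 ha, Perm.apply_mem_support.2 ha⟩), card_erase_of_mem ha]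
  omega

theorem bochC_inv {q : α} (hq : q ∈ u.support) : u⁻¹ q ∈ u.support :=
  Perm.apply_mem_support.1 (by simpa using hq)

theorem bochC_ne {q : α} (hq : q ∈ u.support) : q ≠ u⁻¹ q := fun e =>
  Perm.mem_support.1 hq (by rw [Perm.eq_inv_iff_eq] at e; exact e)

/-- PROOF.  `q = y` contributes `#𝒢` (`C4.zero`); for `q ∈ S.erase y`, `g q ∈ S ↔ g q ∈ (S.erase a).erase (u a)` on `𝒢` (`C4.one`). -/
theorem sum_al (h : C4 X c) (hc : 4 ≤ Fintype.card α) (ha : a ∈ u.support) (hz : z ∉ u.support) (hy : y ∈ u.support) :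
    ∑ g ∈ Gs X z y a (u a), (u.support.filter fun q => g q ∈ u.support).card =
      (Fintype.card α - 2) * ((Fintype.card α - 3) * c) + (u.support.card - 1) * ((u.support.card - 2) * ((Fintype.card α - 3) * c)) := by
  have zy : z ≠ y := fun e => hz (e ▸ hy)
  have ab : a ≠ u a := (Perm.mem_support.1 ha).symm
  rw [bochC_swap (P := fun g q => g q ∈ u.support), ← add_sum_erase _ _ hy,
    filter_true_of_mem fun g hg => by rw [(mem_Gs.1 hg).2.2]; exact Perm.apply_mem_support.2 ha, h.zero hc zy ab,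
    sum_congr rfl (g := fun _ => (u.support.card - 2) * ((Fintype.card α - 3) * c)), sum_const, card_erase_of_mem hy,
    smul_eq_mul]
  intro q hq
  obtain ⟨q1, q2⟩ := mem_erase.1 hq
  have q3 : q ≠ z := fun e => hz (e ▸ q2)
  rw [← bochC_card ha, ← h.one hc zy ab q3 q1 (by simp) (by simp)]
  refine congrArg card (filter_congr fun g hg => ?_)
  obtain ⟨-, g1, g2⟩ := mem_Gs.1 hg
  have e1 : g q ≠ a := fun e => q3 (g.injective (e.trans g1.symm))
  have e2 : g q ≠ u a := fun e => q1 (g.injective (e.trans g2.symm))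
  simp only [mem_erase, ne_eq, e1, e2, not_false_eq_true, true_and]

/-- PROOF.  Keep only `p ∈ S \ {a, u a, u (u a)}`; `Gs_inv`, `C4.two` for `Gs X a (u a) z y`, the points `p`, `u⁻¹ p` and `Q = S.erase y`. -/
theorem sum_be (h : C4 X c) (ha : a ∈ u.support) (hz : z ∉ u.support) (hy : y ∈ u.support) :
    (u.support.card - 3) * ((u.support.card - 1) * (u.support.card - 2) * c) ≤
      ∑ g ∈ Gs X z y a (u a), (u.support.filter fun p => g⁻¹ p ∈ u.support ∧ g⁻¹ (u⁻¹ p) ∈ u.support).card := by
  have zy : z ≠ y := fun e => hz (e ▸ hy)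
  have ab : a ≠ u a := (Perm.mem_support.1 ha).symm
  rw [bochC_swap (P := fun g p => g⁻¹ p ∈ u.support ∧ g⁻¹ (u⁻¹ p) ∈ u.support)]
  refine le_trans ?_ (sum_le_sum_of_subset (sdiff_subset (t := {a, u a, u (u a)})))
  refine le_trans (Nat.mul_le_mul_right _ ?_) (card_nsmul_le_sum _ _ _ fun p hp => ?_)
  · have h1 := le_card_sdiff ({a, u a, u (u a)} : Finset α) u.support
    have h2 : ({a, u a, u (u a)} : Finset α).card ≤ 3 := card_le_three
    omega
  obtain ⟨p1, p2⟩ := mem_sdiff.1 hp
  simp only [mem_insert, mem_singleton, not_or] at p2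
  rw [Gs_inv X z y a (u a) fun g => g p ∈ u.support ∧ g (u⁻¹ p) ∈ u.support]
  have := h.two ab zy (p := p) (p' := u⁻¹ p) p2.1 p2.2.1 (fun e => p2.2.1 (by rw [← e]; simp))
    (fun e => p2.2.2 (by rw [← e]; simp)) (bochC_ne p1) (Q := u.support.erase y) (fun e => hz (mem_of_mem_erase e))
    (by simp)
  rw [card_erase_of_mem hy] at this
  exact le_trans (le_of_eq this.symm) (card_le_card (monotone_filter_right _ fun g _ e =>
    ⟨mem_of_mem_erase e.1, mem_of_mem_erase e.2⟩))

/-- PROOF.  `Q = (S.erase a).erase (u a)`.  `q = y`: `C4.one` at the point `u⁻¹ y`; `q = u y`: `C4.one` at `u y`; the `m - 2` other `q`: `C4.two` at `q`, `u⁻¹ q`. -/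
theorem sum_ga (h : C4 X c) (hc : 4 ≤ Fintype.card α) (ha : a ∈ u.support) (hz : z ∉ u.support) (hy : y ∈ u.support) :
    2 * ((u.support.card - 2) * ((Fintype.card α - 3) * c)) + (u.support.card - 2) * ((u.support.card - 2) * (u.support.card - 3) * c) ≤
      ∑ g ∈ Gs X z y a (u a), (u.support.filter fun q => g q ∈ u.support ∧ g (u⁻¹ q) ∈ u.support).card := by
  have zy : z ≠ y := fun e => hz (e ▸ hy)
  have ab : a ≠ u a := (Perm.mem_support.1 ha).symm
  have uy : u y ∈ u.support.erase y := mem_erase.2 ⟨Perm.mem_support.1 hy, Perm.apply_mem_support.2 hy⟩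
  have nz : ∀ q ∈ u.support, q ≠ z := fun q hq e => hz (e ▸ hq)
  have sub : ∀ q ∈ (u.support.erase a).erase (u a), q ∈ u.support := fun q e =>
    mem_of_mem_erase (mem_of_mem_erase e)
  have gy : ∀ g ∈ Gs X z y a (u a), g y ∈ u.support := fun g hg => by
    rw [(mem_Gs.1 hg).2.2]; exact Perm.apply_mem_support.2 ha
  rw [bochC_swap (P := fun g q => g q ∈ u.support ∧ g (u⁻¹ q) ∈ u.support), ← add_sum_erase _ _ hy,
    ← add_sum_erase _ _ uy, two_mul, add_assoc]
  refine add_le_add ?_ (add_le_add ?_ ?_)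
  · have := h.one hc zy ab (nz _ (bochC_inv hy)) (bochC_ne hy).symm (Q := (u.support.erase a).erase (u a))
      (by simp) (by simp)
    rw [bochC_card ha] at this
    exact le_trans (le_of_eq this.symm) (card_le_card (monotone_filter_right _ fun g hg e => ⟨gy g hg, sub _ e⟩))
  · have := h.one hc zy ab (nz _ (mem_of_mem_erase uy)) (Perm.mem_support.1 hy)
      (Q := (u.support.erase a).erase (u a)) (by simp) (by simp)
    rw [bochC_card ha] at this
    exact le_trans (le_of_eq this.symm) (card_le_card (monotone_filter_right _ fun g hg e =>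
      ⟨sub _ e, by simpa using gy g hg⟩))
  · rw [← bochC_card hy]
    refine le_trans (le_of_eq (smul_eq_mul _ _).symm) (card_nsmul_le_sum _ _ _ fun q hq => ?_)
    obtain ⟨q1, q2⟩ := mem_erase.1 hq
    obtain ⟨q2, q3⟩ := mem_erase.1 q2
    have := h.two zy ab (p := q) (p' := u⁻¹ q) (nz _ q3) q2 (nz _ (bochC_inv q3))
      (fun e => q1 (by rw [← e]; simp)) (bochC_ne q3) (Q := (u.support.erase a).erase (u a)) (by simp) (by simp)
    rw [bochC_card ha] at this
    rw [bochC_card hy]
    exact le_trans (le_of_eq this.symm) (card_le_card (monotone_filter_right _ fun g _ e => ⟨sub _ e.1, sub _ e.2⟩))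

end Cfsg.Agent.PrF
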