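import Cfsg.Agent.PrF.BochB
import Cfsg.Agent.PrF.BochC
import Cfsg.Agent.S0711

/-!
A Bochert-type bound: a 4-transitive group with a small support contains the alternating group.  Read the signatures of `PrF/BochA`.
`S = u.support`, `m = #S`, `n = card α`, `a ∈ S`, `b = u a`, `z ∉ S`, `y ∈ S`, `𝒢 = Gs X z y a (u a)`.  Sums over `g` are swapped with sums over points by
`Finset.sum_card_bipartiteAbove_eq_sum_card_bipartiteBelow` (or `card_filter` and `sum_comm`).
-/

namespace Cfsg.Agent.PrF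
open MulAction Equiv Finset

variable {α : Type*} [Fintype α] [DecidableEq α] {X : Subgroup (Perm α)} {c : ℕ} {z y a : α} {u : Perm α}

/-- `m = M + 6`, `n = 2 m + 5 + s`; after cancelling `c` the difference is a polynomial in `M, s` with positive coefficients. -/
theorem boch_num {m n c : ℕ} (hc : 0 < c) (hm : 6 ≤ m) (hn : 2 * m + 5 ≤ n) :
    3 * ((n - 2) * ((n - 3) * c) + (m - 1) * ((m - 2) * ((n - 3) * c))) <
      m * ((n - 2) * ((n - 3) * c)) + (m - 3) * ((m - 1) * (m - 2) * c) +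
        (2 * ((m - 2) * ((n - 3) * c)) + (m - 2) * ((m - 2) * (m - 3) * c)) := by
  obtain ⟨M, rfl⟩ : ∃ M, m = M + 6 := ⟨m - 6, by omega⟩
  obtain ⟨s, rfl⟩ : ∃ s, n = 2 * M + 17 + s := ⟨n - (2 * M + 17), by omega⟩
  have e1 : 2 * M + 17 + s - 2 = 2 * M + 15 + s := by omega
  have e2 : 2 * M + 17 + s - 3 = 2 * M + 14 + s := by omega
  have e3 : M + 6 - 1 = M + 5 := by omega
  have e4 : M + 6 - 2 = M + 4 := by omega
  have e5 : M + 6 - 3 = M + 3 := by omega
  rw [e1, e2, e3, e4, e5]
  have : (M + 6) * ((2 * M + 15 + s) * ((2 * M + 14 + s) * c)) + (M + 3) * ((M + 5) * (M + 4) * c) +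
        (2 * ((M + 4) * ((2 * M + 14 + s) * c)) + (M + 4) * ((M + 4) * (M + 3) * c)) =
      3 * ((2 * M + 15 + s) * ((2 * M + 14 + s) * c) + (M + 5) * ((M + 4) * ((2 * M + 14 + s) * c))) +
        (M ^ 2 + 17 * M + 10 + s * (M ^ 2 + 16 * M + 35) + s ^ 2 * (M + 3)) * c := by ring
  rw [this]
  have : 0 < (M ^ 2 + 17 * M + 10 + s * (M ^ 2 + 16 * M + 35) + s ^ 2 * (M + 3)) * c := Nat.mul_pos (by omega) hc
  omega

/-- PROOF.  Take `u ∈ X`, `u ≠ 1` of minimal support (`Sm n` is closed downwards).  `m ≤ 5`: `(Cfsg.Agent.S0711.result X (k := 4) …).2`.  Otherwise for `g ∈ 𝒢`, `v = g u g⁻¹` fixes `a`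
and moves `u a`, so `u v a ≠ v u a`, the commutator is a nontrivial element of `X` and has support `≥ m`.  Sum `comm_supp'` over `𝒢`; `C4.zero`, `boch_num`. -/
theorem boch (h4 : IsMultiplyPretransitive X α 4) (hc : 4 ≤ Fintype.card α) (hu : u ∈ X) (h1 : u ≠ 1)
    (hs : Sm (Fintype.card α) u.support.card) : alternatingGroup α ≤ X := by
  classical
  obtain ⟨w, ⟨hwX, hw1⟩, hmin⟩ := exists_minimalFor_of_wellFoundedLT (fun g : Perm α => g ∈ X ∧ g ≠ 1)
    (fun g => g.support.card) ⟨u, hu, h1⟩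
  have hm : ∀ g ∈ X, g ≠ 1 → w.support.card ≤ g.support.card := by
    intro g hg hg1
    by_contra hlt
    exact hlt (hmin ⟨hg, hg1⟩ (not_le.mp hlt).le)
  have hwu := hm u hu h1
  by_cases h5 : w.support.card ≤ 5
  · exact (Cfsg.Agent.S0711.result X (k := 4) (by norm_num) hc h4 w hwX hw1 (by omega)).2
  exfalso
  have hn : 2 * w.support.card + 5 ≤ Fintype.card α := by
    rcases hs with hs | hs <;> omega
  obtain ⟨c, hC⟩ := exists_C4 h4 hc
  obtain ⟨a, ha⟩ : w.support.Nonempty := Finset.card_pos.mp (by omega)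
  obtain ⟨z, hz⟩ : ∃ z, z ∉ w.support := by
    by_contra hz
    push Not at hz
    have : w.support = univ := Finset.eq_univ_iff_forall.mpr hz
    rw [this, Finset.card_univ] at hn
    omega
  have haa : w a ≠ a := Perm.mem_support.mp ha
  have hza : z ≠ a := fun e => hz (e ▸ ha)
  have key : ∀ g ∈ Gs X z a a (w a), w.support.card +
      (w.support.filter fun p => g⁻¹ p ∈ w.support ∧ g⁻¹ (w⁻¹ p) ∈ w.support).card +
      (w.support.filter fun q => g q ∈ w.support ∧ g (w⁻¹ q) ∈ w.support).card ≤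
        3 * (w.support.filter fun q => g q ∈ w.support).card := by
    intro g hg
    obtain ⟨hgX, hgz, hga⟩ := mem_Gs.mp hg
    have hv : g * w * g⁻¹ ∈ X := X.mul_mem (X.mul_mem hgX hwX) (X.inv_mem hgX)
    have hcX : w * (g * w * g⁻¹) * w⁻¹ * (g * w * g⁻¹)⁻¹ ∈ X :=
      X.mul_mem (X.mul_mem (X.mul_mem hwX hv) (X.inv_mem hwX)) (X.inv_mem hv)
    have e1 : g⁻¹ a = z := by rw [← hgz]; simp
    have e2 : g⁻¹ (w a) = a := by rw [← hga]; simp
    have hzz : w z = z := Perm.notMem_support.mp hz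
    have hne : w * (g * w * g⁻¹) * w⁻¹ * (g * w * g⁻¹)⁻¹ ≠ 1 := by
      intro e
      have e' : w * (g * w * g⁻¹) = (g * w * g⁻¹) * w := by
        have := congrArg (fun t => t * (g * w * g⁻¹) * w) e
        simpa [mul_assoc] using this
      have e3 := congrArg (fun t : Perm α => t a) e'
      simp only [Perm.mul_apply, e1, e2, hzz, hgz] at e3
      rw [← hga] at e3
      rw [hga] at e3
      have e4 : g a = g (w a) := by rw [hga]; exact e3
      exact haa (g.injective e4).symm
    have := comm_supp' w g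
    have := hm _ hcX hne
    omega
  have hsum := Finset.sum_le_sum key
  rw [Finset.sum_add_distrib, Finset.sum_add_distrib, ← Finset.mul_sum, Finset.sum_const, smul_eq_mul,
    sum_al hC hc ha hz ha, hC.zero hc hza haa.symm] at hsum
  have hb := sum_be hC ha hz ha
  have hg := sum_ga hC hc ha hz ha
  have hnum := boch_num (m := w.support.card) (n := Fintype.card α) hC.1 (by omega) hn
  rw [mul_comm _ w.support.card] at hsum
  omega

end Cfsg.Agent.PrF
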