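import Cfsg.Agent.PrF.Defs

/-!
Counting in a 4-transitive permutation group `X` of degree `n = card α`.
-/

namespace Cfsg.Agent.PrF
open MulAction Equiv Finset

variable {α : Type*} [Fintype α] [DecidableEq α] {X : Subgroup (Perm α)} {c : ℕ} {z y a b : α}

open Classical in
/-- The elements of `X` with `z ↦ a`, `y ↦ b`. -/
noncomputable def Gs (X : Subgroup (Perm α)) (z y a b : α) : Finset (Perm α) :=
  univ.filter fun g => g ∈ X ∧ g z = a ∧ g y = b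

/-- `c` elements of `X` map a given 4-tuple of distinct points to another one. -/
def C4 (X : Subgroup (Perm α)) (c : ℕ) : Prop :=
  0 < c ∧ ∀ z y p p' a b q q' : α, z ≠ y → p ≠ z → p ≠ y → p' ≠ z → p' ≠ y → p ≠ p' → a ≠ b → q ≠ a → q ≠ b → q' ≠ a → q' ≠ b →
    q ≠ q' → ((Gs X z y a b).filter fun g => g p = q ∧ g p' = q').card = c

theorem mem_Gs {g : Perm α} : g ∈ Gs X z y a b ↔ g ∈ X ∧ g z = a ∧ g y = b := by
  simp [Gs]

/-- PROOF.  Fix `e : Fin 4 ↪ α`, `c` = the number of `g ∈ X` fixing `e 0, …, e 3` (`1` is one of them).  For tuples `s`, `t` take `h, h' ∈ X` with `h e = s`,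
`h' e = t` (`exists_smul_eq` on `Fin 4 ↪ α`); `g ↦ h' g h⁻¹` is a bijection (`Finset.card_bij'` or `card_nbij'`). -/
theorem exists_C4 (h4 : IsMultiplyPretransitive X α 4) (hc : 4 ≤ Fintype.card α) : ∃ c, C4 X c := by
  obtain ⟨e⟩ : Nonempty (Fin 4 ↪ α) :=
    Function.Embedding.nonempty_of_card_le (by rwa [Fintype.card_fin])
  have tr : ∀ z y p p' : α, z ≠ y → p ≠ z → p ≠ y → p' ≠ z → p' ≠ y → p ≠ p' →
      ∃ h ∈ X, h (e 0) = z ∧ h (e 1) = y ∧ h (e 2) = p ∧ h (e 3) = p' := by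
    intro z y p p' h1 h2 h3 h5 h6 h7
    obtain ⟨h, k⟩ := h4.exists_smul_eq e ⟨![z, y, p, p'], fun i j => by
      fin_cases i <;> fin_cases j <;> simp_all [eq_comm]⟩
    have k' : ∀ i, (h : Perm α) (e i) = ![z, y, p, p'] i := fun i => DFunLike.congr_fun k i
    exact ⟨h, h.2, k' 0, k' 1, k' 2, k' 3⟩
  refine ⟨((Gs X (e 0) (e 1) (e 0) (e 1)).filter fun g => g (e 2) = e 2 ∧ g (e 3) = e 3).card,
    card_pos.2 ⟨1, by simp [mem_Gs]⟩, ?_⟩
  intro z y p p' a b q q' h1 h2 h3 h5 h6 h7 k1 k2 k3 k5 k6 k7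
  obtain ⟨h, hX, rfl, rfl, rfl, rfl⟩ := tr z y p p' h1 h2 h3 h5 h6 h7
  obtain ⟨k, kX, rfl, rfl, rfl, rfl⟩ := tr a b q q' k1 k2 k3 k5 k6 k7
  refine card_nbij' (fun g => k⁻¹ * g * h) (fun g => k * g * h⁻¹) (fun g hg => ?_) (fun g hg => ?_)
    (fun g _ => by group) fun g _ => by group
  · simp only [coe_filter, mem_Gs, Set.mem_ofPred_eq] at hg ⊢
    obtain ⟨⟨g1, g2, g3⟩, g4, g5⟩ := hg
    simp [g2, g3, g4, g5, X.mul_mem (X.mul_mem (X.inv_mem kX) g1) hX]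
  · simp only [coe_filter, mem_Gs, Set.mem_ofPred_eq] at hg ⊢
    obtain ⟨⟨g1, g2, g3⟩, g4, g5⟩ := hg
    simp [g2, g3, g4, g5, X.mul_mem (X.mul_mem kX g1) (X.inv_mem hX)]

/-- PROOF.  `Finset.card_eq_sum_card_fiberwise` for `g ↦ (g p, g p') ∈ Q.offDiag` (`Finset.offDiag_card`). -/
theorem C4.two (h : C4 X c) (zy : z ≠ y) (ab : a ≠ b) {p p' : α} (h1 : p ≠ z) (h2 : p ≠ y) (h3 : p' ≠ z) (h4 : p' ≠ y) (h5 : p ≠ p')
    {Q : Finset α} (ha : a ∉ Q) (hb : b ∉ Q) :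
    ((Gs X z y a b).filter fun g => g p ∈ Q ∧ g p' ∈ Q).card = Q.card * (Q.card - 1) * c := by
  rw [card_eq_sum_card_fiberwise (f := fun g : Perm α => (g p, g p')) (t := Q.offDiag) (fun g hg => by
    have := (mem_filter.1 hg).2
    exact mem_offDiag.2 ⟨this.1, this.2, g.injective.ne h5⟩), sum_const_nat (m := c), offDiag_card,
    Nat.mul_sub_one]
  rintro ⟨q, q'⟩ hq
  obtain ⟨q1, q2, q3⟩ := mem_offDiag.1 hq
  rw [← h.2 z y p p' a b q q' zy h1 h2 h3 h4 h5 ab (ne_of_mem_of_not_mem q1 ha)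
    (ne_of_mem_of_not_mem q1 hb) (ne_of_mem_of_not_mem q2 ha) (ne_of_mem_of_not_mem q2 hb) q3,
    filter_filter]
  congr 1
  refine filter_congr fun g _ => ⟨fun k => Prod.mk.inj k.2, fun k => ?_⟩
  rw [k.1, k.2]
  exact ⟨⟨q1, q2⟩, rfl⟩

/-- PROOF.  Choose `p' ∉ {z, y, p}`; fibres of `g ↦ g p' ∈ {a, b, q}ᶜ`. -/
theorem C4.pt (h : C4 X c) (hc : 4 ≤ Fintype.card α) (zy : z ≠ y) (ab : a ≠ b) {p q : α} (h1 : p ≠ z) (h2 : p ≠ y) (h3 : q ≠ a)
    (h4 : q ≠ b) : ((Gs X z y a b).filter fun g => g p = q).card = (Fintype.card α - 3) * c := by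
  obtain ⟨p', hp⟩ : ∃ p', p' ∉ ({z, y, p} : Finset α) := by
    by_contra! k
    have := (card_le_card fun x (_ : x ∈ univ) => k x).trans card_le_three
    rw [card_univ] at this
    omega
  simp only [mem_insert, mem_singleton, not_or] at hp
  rw [card_eq_sum_card_fiberwise (f := fun g : Perm α => g p') (t := {a, b, q}ᶜ) (fun g hg => by
    obtain ⟨g1, g2⟩ := mem_filter.1 hg
    obtain ⟨-, g3, g4⟩ := mem_Gs.1 g1
    simp [← g2, ← g3, ← g4, hp]), sum_const_nat (m := c), card_compl,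
    card_eq_three.2 ⟨a, b, q, ab, h3.symm, h4.symm, rfl⟩]
  intro q' hq
  simp only [mem_compl, mem_insert, mem_singleton, not_or] at hq
  rw [filter_filter]
  exact h.2 z y p p' a b q q' zy h1 h2 hp.1 hp.2.1 (Ne.symm hp.2.2) ab h3 h4 hq.1 hq.2.1
    (Ne.symm hq.2.2)

/-- PROOF.  Fibres of `g ↦ g p ∈ Q`, `C4.pt`. -/
theorem C4.one (h : C4 X c) (hc : 4 ≤ Fintype.card α) (zy : z ≠ y) (ab : a ≠ b) {p : α} (h1 : p ≠ z) (h2 : p ≠ y)
    {Q : Finset α} (ha : a ∉ Q) (hb : b ∉ Q) :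
    ((Gs X z y a b).filter fun g => g p ∈ Q).card = Q.card * ((Fintype.card α - 3) * c) := by
  rw [card_eq_sum_card_fiberwise (f := fun g : Perm α => g p) (t := Q)
    (fun g hg => by exact (mem_filter.1 hg).2), sum_const_nat]
  intro q hq
  rw [← h.pt hc zy ab h1 h2 (ne_of_mem_of_not_mem hq ha) (ne_of_mem_of_not_mem hq hb), filter_filter]
  congr 1
  exact filter_congr fun g _ => ⟨fun k => k.2, fun k => ⟨k ▸ hq, k⟩⟩

/-- PROOF.  `C4.one` with `Q = {a, b}ᶜ` and some `p ∉ {z, y}`. -/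
theorem C4.zero (h : C4 X c) (hc : 4 ≤ Fintype.card α) (zy : z ≠ y) (ab : a ≠ b) :
    (Gs X z y a b).card = (Fintype.card α - 2) * ((Fintype.card α - 3) * c) := by
  obtain ⟨p, hp⟩ : ∃ p, p ∉ ({z, y} : Finset α) := by
    by_contra! k
    have := (card_le_card fun x (_ : x ∈ univ) => k x).trans card_le_two
    rw [card_univ] at this
    omega
  simp only [mem_insert, mem_singleton, not_or] at hp
  have := h.one hc zy ab hp.1 hp.2 (Q := {a, b}ᶜ) (by simp) (by simp)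
  rw [card_compl, card_pair ab, filter_true_of_mem fun g hg => by
    obtain ⟨-, g3, g4⟩ := mem_Gs.1 hg
    simp [← g3, ← g4, hp]] at this
  exact this

/-- `g ↦ g⁻¹`. -/
theorem Gs_inv (X : Subgroup (Perm α)) (z y a b : α) (P : Perm α → Prop) [DecidablePred P] :
    ((Gs X z y a b).filter fun g => P g⁻¹).card = ((Gs X a b z y).filter P).card := by
  refine card_nbij' (fun g => g⁻¹) (fun g => g⁻¹) (fun g hg => ?_) (fun g hg => ?_)
    (fun g _ => inv_inv g) fun g _ => inv_inv g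
  · simp only [coe_filter, mem_Gs, Set.mem_ofPred_eq] at hg ⊢
    obtain ⟨⟨g1, rfl, rfl⟩, g4⟩ := hg
    simp [g1, g4]
  · simp only [coe_filter, mem_Gs, Set.mem_ofPred_eq] at hg ⊢
    obtain ⟨⟨g1, rfl, rfl⟩, g4⟩ := hg
    simp [g1, g4]

end Cfsg.Agent.PrF
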