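import Cfsg.Agent.PrF.BochA

/-!
A Bochert-type bound: a 4-transitive group with a small support contains the alternating group.  Read the signatures of `PrF/BochA`.
`S = u.support`, `m = #S`, `n = card α`, `a ∈ S`, `b = u a`, `z ∉ S`, `y ∈ S`, `𝒢 = Gs X z y a (u a)`.  Sums over `g` are swapped with sums over points by
`Finset.sum_card_bipartiteAbove_eq_sum_card_bipartiteBelow` (or `card_filter` and `sum_comm`).
-/

namespace Cfsg.Agent.PrF
open MulAction Equiv Finset

variable {α : Type*} [Fintype α] [DecidableEq α] {X : Subgroup (Perm α)} {c : ℕ} {z y a : α} {u : Perm α}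

/-- PROOF.  `A = supp u ∩ supp v`.  The support of the commutator lies in `A ∪ u A ∪ v A`: let `x` be outside.  If `v x = x` then `v` fixes `u⁻¹ x` (otherwise `u` moves `x`
and `u⁻¹ x ∈ A`).  If `v` moves `x` then `u x = x` and `u` fixes `v⁻¹ x`.  So it lies in `A ∪ (u A \ A) ∪ (v A \ A)`, `#(u A \ A) = #A - #(A ∩ u A)`
(`card_sdiff_add_card_inter`), and the two filters below are contained in `A ∩ u A`, `A ∩ v A`. -/
theorem comm_supp (u v : Perm α) :
    (u * v * u⁻¹ * v⁻¹).support.card + ((u.support ∩ v.support).filter fun p => u⁻¹ p ∈ v.support).card +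
      ((u.support ∩ v.support).filter fun p => v⁻¹ p ∈ u.support).card ≤ 3 * (u.support ∩ v.support).card := by
  have ai : ∀ (f : Perm α) x, f (f⁻¹ x) = x := fun f => f.apply_symm_apply
  set A := u.support ∩ v.support with hA
  have h0 : (u * v * u⁻¹ * v⁻¹).support ⊆ A ∪ (A.map u.toEmbedding \ A) ∪ (A.map v.toEmbedding \ A) := fun x hx => by
    by_contra n
    simp only [hA, mem_union, mem_sdiff, mem_map_equiv, mem_inter, Perm.mem_support, apply_symm_apply, ← Perm.inv_def,
      ai] at n
    refine Perm.mem_support.1 hx ?_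
    simp only [Perm.mul_apply]
    by_cases e : v x = x
    · have e1 : v⁻¹ x = x := Perm.inv_eq_iff_eq.2 e.symm
      have e2 : v (u⁻¹ x) = u⁻¹ x := by
        by_contra c
        exact n (Or.inl (Or.inr ⟨⟨fun d => c (by rw [← show x = u⁻¹ x from d, e]), c⟩, fun d => d.2 e⟩))
      rw [e1, e2, ai]
    · have e1 : u x = x := by
        by_contra c
        exact n (Or.inl (Or.inl ⟨c, e⟩))
      have e2 : u (v⁻¹ x) = v⁻¹ x := by
        by_contra c
        exact n (Or.inr ⟨⟨c, fun d => e ((congrArg v (show x = v⁻¹ x from d)).trans (ai v x))⟩, fun d => d.1 e1⟩)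
      rw [Perm.inv_eq_iff_eq.2 e2.symm, ai, e1]
  have h1 := (card_le_card h0).trans ((card_union_le _ _).trans (Nat.add_le_add_right (card_union_le _ _) _))
  have h2 := card_sdiff_add_card_inter (A.map u.toEmbedding) A
  have h3 := card_sdiff_add_card_inter (A.map v.toEmbedding) A
  rw [card_map] at h2 h3
  have h4 : (A.filter fun p => u⁻¹ p ∈ v.support).card ≤ (A.map u.toEmbedding ∩ A).card := card_le_card fun p hp => by
    rw [mem_filter] at hp
    exact mem_inter.2 ⟨mem_map_equiv.2 (mem_inter.2 ⟨Perm.apply_mem_support.1 (by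
      simpa using (mem_inter.1 hp.1).1), hp.2⟩), hp.1⟩
  have h5 : (A.filter fun p => v⁻¹ p ∈ u.support).card ≤ (A.map v.toEmbedding ∩ A).card := card_le_card fun p hp => by
    rw [mem_filter] at hp
    exact mem_inter.2 ⟨mem_map_equiv.2 (mem_inter.2 ⟨hp.2, Perm.apply_mem_support.1 (by
      simpa using (mem_inter.1 hp.1).2)⟩), hp.1⟩
  omega

/-- PROOF.  `comm_supp` with `v = g u g⁻¹`, `p ∈ supp v ↔ g⁻¹ p ∈ S`; the bijection `q ↦ g q` for the last two terms. -/
theorem comm_supp' (u g : Perm α) :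
    (u * (g * u * g⁻¹) * u⁻¹ * (g * u * g⁻¹)⁻¹).support.card +
      (u.support.filter fun p => g⁻¹ p ∈ u.support ∧ g⁻¹ (u⁻¹ p) ∈ u.support).card +
      (u.support.filter fun q => g q ∈ u.support ∧ g (u⁻¹ q) ∈ u.support).card ≤ 3 * (u.support.filter fun q => g q ∈ u.support).card := by
  have h := comm_supp u (g * u * g⁻¹)
  have ia : ∀ x, g⁻¹ (g x) = x := g.symm_apply_apply
  have m : ∀ p, p ∈ (g * u * g⁻¹).support ↔ g⁻¹ p ∈ u.support := fun p => by
    rw [Perm.support_conj, mem_map_equiv]; rfl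
  have h1 : ((u.support ∩ (g * u * g⁻¹).support).filter fun p => u⁻¹ p ∈ (g * u * g⁻¹).support) =
      u.support.filter fun p => g⁻¹ p ∈ u.support ∧ g⁻¹ (u⁻¹ p) ∈ u.support := by
    ext p
    simp only [mem_filter, mem_inter, m, and_assoc]
  have h2 : (u.support.filter fun q => g q ∈ u.support ∧ g (u⁻¹ q) ∈ u.support).card =
      ((u.support ∩ (g * u * g⁻¹).support).filter fun p => (g * u * g⁻¹)⁻¹ p ∈ u.support).card :=
    card_equiv g fun q => by
      simp only [mem_filter, mem_inter, m, mul_inv_rev, inv_inv, Perm.mul_apply, ia]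
      tauto
  have h3 : (u.support.filter fun q => g q ∈ u.support).card = (u.support ∩ (g * u * g⁻¹).support).card :=
    card_equiv g fun q => by
      simp only [mem_filter, mem_inter, m, ia]
      tauto
  rwa [h1, ← h2, ← h3] at h

end Cfsg.Agent.PrF
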