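import Cfsg.Agent.PrF.Bas

/-!
The function `dd`, the induction hypothesis, multiple transitivity.
-/

namespace Cfsg.Agent.PrF
open MulAction Subgroup
open scoped Pointwise

universe u v

variable {G : Type u} [Group G] {Ω : Type v} [MulAction G Ω] {K R : Subgroup G}

variable [Finite Ω]

theorem dd_union (K : Subgroup G) {Y Z : Set Ω} (h : Disjoint Y Z) : dd K (Y ∪ Z) = dd K Y + dd K Z := by
  simp only [dd, Set.union_inter_distrib_right, Set.ncard_union_eq h,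
    Set.ncard_union_eq (h.mono Set.inter_subset_left Set.inter_subset_left)]
  push_cast
  ring

theorem dd_diff (K : Subgroup G) {Y Z : Set Ω} (h : Y ⊆ Z) : dd K Z = dd K Y + dd K (Z \ Y) := by
  rw [← dd_union K Set.disjoint_sdiff_right, Set.union_diff_cancel h]

theorem dd_of_subset {S : Set Ω} (h : S ⊆ Fx K Ω) : dd K S = -(S.ncard : ℤ) := by
  rw [dd, Set.inter_eq_left.2 h]
  ring

theorem dd_eq (K : Subgroup G) (Y : Set Ω) : dd K Y = ((Y \ Fx K Ω).ncard : ℤ) - ((Y ∩ Fx K Ω).ncard : ℤ) := by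
  have := Set.ncard_inter_add_ncard_diff_eq_ncard Y (Fx K Ω)
  rw [dd]
  omega

theorem dd_univ (K : Subgroup G) : dd K (Set.univ : Set Ω) = (Nat.card Ω : ℤ) - 2 * ((Fx K Ω).ncard : ℤ) := by
  rw [dd, Set.ncard_univ, Set.univ_inter]

theorem dd_compl {S : Set Ω} (h : S ⊆ Fx K Ω) : dd K Sᶜ = dd K (Set.univ : Set Ω) + S.ncard := by
  rw [dd_diff K (Set.subset_univ S), dd_of_subset h, Set.compl_eq_univ_diff]
  ring

theorem IH.orb (h : IH K Ω) (hK : K ≤ R) {Z : Set Ω} (hZ : Inv R Z) (hu : Z ≠ Set.univ) {x : Ω} (hx : x ∈ Z)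
    (hF : ¬ orb R x ⊆ Fx K Ω) : Res K R (orb R x) :=
  h R _ hK (tr_orb R x) (fun e => hu (Set.univ_subset_iff.1 (e ▸ hZ.orb_subset hx))) hF

/-- Induction on `Z.ncard`: remove an orbit (`dd_diff`). -/
theorem IH.nonneg (h : IH K Ω) (hK : K ≤ R) {Z : Set Ω} (hZ : Inv R Z) (hu : Z ≠ Set.univ)
    (hF : ∀ x ∈ Z, ¬ PrF.orb R x ⊆ Fx K Ω) : 0 ≤ dd K Z := by
  induction hn : Z.ncard using Nat.strong_induction_on generalizing Z with | _ n ih =>
  rcases Z.eq_empty_or_nonempty with rfl | ⟨x, hx⟩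
  · simp [dd]
  have h1 := (h.orb hK hZ hu hx (hF x hx)).1
  have h2 := ih _ (hn ▸ Set.ncard_lt_ncard (Set.diff_ssubset_left_iff.2 ⟨x, hx, self_mem_orb R x⟩))
    (hZ.diff (tr_orb R x).1) (fun e => hu (Set.univ_subset_iff.1 (e ▸ Set.diff_subset))) (fun y hy => hF y hy.1) rfl
  rw [dd_diff K (hZ.orb_subset hx)]
  omega

theorem IH.pos (h : IH K Ω) (hK : K ≤ R) {Z : Set Ω} (hZ : Inv R Z) (hu : Z ≠ Set.univ)
    (hF : ∀ x ∈ Z, ¬ PrF.orb R x ⊆ Fx K Ω) (hn : Z.Nonempty) : 1 ≤ dd K Z := by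
  obtain ⟨x, hx⟩ := hn
  have h1 := (h.orb hK hZ hu hx (hF x hx)).1
  have h2 := h.nonneg hK (hZ.diff (tr_orb R x).1) (fun e => hu (Set.univ_subset_iff.1 (e ▸ Set.diff_subset)))
    fun y hy => hF y hy.1
  rw [dd_diff K (hZ.orb_subset hx)]
  omega

/-- If `dd K Z ≤ 1` then `Z` is one orbit. -/
theorem IH.eq_orb (h : IH K Ω) (hK : K ≤ R) {Z : Set Ω} (hZ : Inv R Z) (hu : Z ≠ Set.univ)
    (hF : ∀ x ∈ Z, ¬ PrF.orb R x ⊆ Fx K Ω) (h1 : dd K Z ≤ 1) {x : Ω} (hx : x ∈ Z) : PrF.orb R x = Z := by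
  refine (hZ.orb_subset hx).antisymm (Set.diff_eq_empty.1 (Set.not_nonempty_iff_eq_empty.1 fun hn => ?_))
  have h3 := (h.orb hK hZ hu hx (hF x hx)).1
  have h2 := h.pos hK (hZ.diff (tr_orb R x).1) (fun e => hu (Set.univ_subset_iff.1 (e ▸ Set.diff_subset)))
    (fun y hy => hF y hy.1) hn
  rw [dd_diff K (hZ.orb_subset hx)] at h1
  omega

/-- A point moved by `K` and its image. -/
theorem exists_two {Y : Set Ω} (hY : Inv K Y) (hF : ¬ Y ⊆ Fx K Ω) : ∃ x ∈ Y, ∃ y ∈ Y, x ≠ y := by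
  obtain ⟨x, hx, h⟩ := Set.not_subset.1 hF
  simp only [mem_Fx, not_forall] at h
  obtain ⟨k, hk, h⟩ := h
  exact ⟨_, hY k hk x hx, x, hx, h⟩

/-- `↥R` acts on the subtype `↥Γ` (a `SubMulAction ↥R Ω` with carrier `Γ`); `Prn.subgroupOf`; `Set.ncard_image_of_injective`. -/
theorem ih_of_th [Finite G] (h : ∀ m < Nat.card Ω, Th.{u, v} m) (hK : Prn K) : IH K Ω := by
  intro R Γ hR hΓ hu hF
  let S : SubMulAction R Ω := ⟨Γ, fun g _ hx => hΓ.1 g g.2 _ hx⟩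
  have e : Fx (K.subgroupOf R) S = Subtype.val ⁻¹' Fx K Ω := Set.ext fun x =>
    ⟨fun h k hk => congrArg Subtype.val (h ⟨k, hR hk⟩ hk), fun h k hk => Subtype.ext (h k hk)⟩
  have e1 : dd (K.subgroupOf R) (Set.univ : Set S) = dd K Γ := by
    rw [dd_univ, e, ← Set.ncard_image_of_injective _ Subtype.val_injective]
    exact congrArg (fun T : Set Ω => (Γ.ncard : ℤ) - 2 * (T.ncard : ℤ)) (Subtype.image_preimage_coe Γ _)
  have k := h (Nat.card S) ((Set.ncard_lt_ncard (Set.ssubset_univ_iff.2 hu)).trans_eq (Set.ncard_univ Ω)) R S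
    (K.subgroupOf R) rfl (hK.subgroupOf hR) ⟨fun x y => by
      obtain ⟨g, hg, e⟩ := hΓ.2 x x.2 y y.2
      exact ⟨⟨g, hg⟩, Subtype.ext e⟩⟩ fun k => hF fun x hx => (e.symm.trans k).ge (Set.mem_univ (⟨x, hx⟩ : S))
  refine ⟨e1 ▸ k.1, fun k1 x hx y hy x' hx' y' hy' h1 h2 => ?_⟩
  obtain ⟨g, -, h3, h4⟩ := k.2 (e1.trans k1) ⟨x, hx⟩ trivial ⟨y, hy⟩ trivial ⟨x', hx'⟩ trivial ⟨y', hy'⟩ trivial
    (fun e => h1 (congrArg Subtype.val e)) fun e => h2 (congrArg Subtype.val e)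
  exact ⟨g, g.2, congrArg Subtype.val h3, congrArg Subtype.val h4⟩

theorem Kt.mono {k j : ℕ} (h : Kt G Ω k) (hj : j ≤ k) (hk : k ≤ Nat.card Ω) : Kt G Ω j :=
  isMultiplyPretransitive_of_le hj hk

theorem Kt.ex {k : ℕ} (h : Kt G Ω k) {a b : Fin k → Ω} (ha : Function.Injective a) (hb : Function.Injective b) :
    ∃ g : G, ∀ i, g • a i = b i := by
  obtain ⟨g, hg⟩ := h.exists_smul_eq ⟨a, ha⟩ ⟨b, hb⟩
  exact ⟨g, fun i => DFunLike.congr_fun hg i⟩

theorem kt_of {k : ℕ} (h : ∀ a b : Fin k → Ω, Function.Injective a → Function.Injective b → ∃ g : G, ∀ i, g • a i = b i) :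
    Kt G Ω k :=
  ⟨fun a b => (h a b a.2 b.2).imp fun _ hg => Function.Embedding.ext hg⟩

theorem Kt.ex3 (h : Kt G Ω 3) {a b c a' b' c' : Ω} (h1 : a ≠ b) (h2 : a ≠ c) (h3 : b ≠ c) (h1' : a' ≠ b') (h2' : a' ≠ c')
    (h3' : b' ≠ c') : ∃ g : G, g • a = a' ∧ g • b = b' ∧ g • c = c' := by
  have k : ∀ {a b c : Ω}, a ≠ b → a ≠ c → b ≠ c → Function.Injective ![a, b, c] := fun h1 h2 h3 i j e => by
    fin_cases i <;> fin_cases j <;> simp_all
  obtain ⟨g, hg⟩ := h.ex (k h1 h2 h3) (k h1' h2' h3')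
  exact ⟨g, hg 0, hg 1, hg 2⟩

theorem dd_enum {S : Set Ω} {k : ℕ} (h : S.ncard = k) : ∃ a : Fin k → Ω, Function.Injective a ∧ Set.range a = S := by
  have e := (Finite.equivFinOfCardEq (α := S) h).symm
  exact ⟨Subtype.val ∘ e, Subtype.val_injective.comp e.injective, by simp [Set.range_comp]⟩

/-- Sets of the same size `≤ k` are conjugate. -/
theorem Kt.set {k : ℕ} (h : Kt G Ω k) (hk : k ≤ Nat.card Ω) {S T : Set Ω} (e : S.ncard = T.ncard) (hS : S.ncard ≤ k) :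
    ∃ g : G, g • S = T := by
  obtain ⟨a, ha, h1⟩ := dd_enum (S := S) rfl
  obtain ⟨b, hb, h2⟩ := dd_enum e.symm
  obtain ⟨g, hg⟩ := (h.mono hS hk).ex ha hb
  exact ⟨g, by rw [← h2, ← funext hg, ← Set.smul_set_range, h1]⟩

/-- Move the first `k` points of both tuples onto `S` (in the same order). -/
theorem Kt.succ {k : ℕ} (h : Kt G Ω k) {S : Set Ω} (hS : S.ncard = k)
    (ht : ∀ x ∉ S, ∀ y ∉ S, ∃ g ∈ fixingSubgroup G S, g • x = y) : Kt G Ω (k + 1) := by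
  obtain ⟨c, hc, rfl⟩ := dd_enum hS
  have k1 : ∀ a : Fin (k + 1) → Ω, Function.Injective a →
      ∃ g : G, (∀ i, g • a (Fin.castSucc i) = c i) ∧ g • a (Fin.last k) ∉ Set.range c := fun a ha => by
    obtain ⟨g, hg⟩ := h.ex (ha.comp (Fin.castSucc_injective k)) hc
    refine ⟨g, hg, fun ⟨i, hi⟩ => (Fin.castSucc_lt_last i).ne (ha ?_)⟩
    exact smul_left_cancel g ((hg i).trans hi)
  refine kt_of fun a b ha hb => ?_
  obtain ⟨g, h1, h2⟩ := k1 a ha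
  obtain ⟨g', h3, h4⟩ := k1 b hb
  obtain ⟨w, h5, h6⟩ := ht _ h2 _ h4
  refine ⟨g'⁻¹ * (w * g), fun i => ?_⟩
  rw [mul_smul, mul_smul, inv_smul_eq_iff]
  induction i using Fin.lastCases with
  | last => exact h6
  | cast i => rw [h1, h3, (mem_fixingSubgroup_iff G).1 h5 _ ⟨i, rfl⟩]

/-- `Kt.set` (`Set.exists_subset_card_eq`), `Prn.not_subset`. -/
theorem Prn.lt_ncard (h : Prn K) {k : ℕ} (ht : Kt G Ω k) (hk : k ≤ (Fx K Ω).ncard) {O : Set Ω} (hO : Inv K O) (hn : O.Nonempty)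
    (hd : Disjoint O (Fx K Ω)) : k < O.ncard := by
  by_contra k1
  obtain ⟨T, h1, h2⟩ := Set.exists_subset_card_eq ((not_lt.1 k1).trans hk)
  obtain ⟨g, hg⟩ := ht.set (hk.trans (Set.ncard_le_card _)) h2 (h2.trans_le (not_lt.1 k1))
  exact h.not_subset hO hn hd g (hg ▸ Set.smul_set_mono h1)

theorem CE.dd0 (c : CE K Ω) : dd K (Set.univ : Set Ω) = 0 := by
  rw [dd_univ, c.half]
  simp

theorem CE.ncard_compl (c : CE K Ω) : (Fx K Ω)ᶜ.ncard = (Fx K Ω).ncard := by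
  have := Set.ncard_add_ncard_compl (Fx K Ω)
  have := c.half
  omega

theorem inv_compl_Fx : Inv K (Fx K Ω)ᶜ := (inv_compl_fixing _).mono (le_fixing le_rfl)

theorem CE.lt' (c : CE K Ω) {k : ℕ} (ht : Kt G Ω k) (hk : k ≤ Nat.card Ω) : k < (Fx K Ω).ncard := by
  by_contra k1
  exact (c.prn.lt_ncard (ht.mono (not_lt.1 k1) hk) le_rfl inv_compl_Fx (Set.nonempty_compl.2 c.ne)
    disjoint_compl_left).ne' c.ncard_compl

/-- `lt_ncard` for `O = Fᶜ` and `min k h` (`1 ≤ h`; if `h ≤ k` use `Kt.mono`, or `kt_of` when `Nat.card Ω < k`: then `h = 1`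
and a point of `Fᶜ` is fixed by `K`, since it is the only one). -/
theorem CE.four_le (c : CE K Ω) : 4 ≤ (Fx K Ω).ncard := by
  refine c.lt' c.t3 ?_
  obtain ⟨x, hx⟩ := Set.nonempty_compl.2 c.ne
  have := (Set.one_lt_ncard (s := (Fx K Ω)ᶜ)).2 (exists_two inv_compl_Fx fun k => hx (k hx))
  have := c.half
  have := c.ncard_compl
  omega

theorem CE.lt (c : CE K Ω) {k : ℕ} (ht : Kt G Ω k) (hk : k ≤ Nat.card Ω) : k < (Fx K Ω).ncard :=
  c.lt' ht hk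

theorem CE.exists_tri (c : CE K Ω) : ∃ α β γ : Ω, Tri K α β γ := by
  obtain ⟨a, ha, b, hb, d, hd, h1, h2, h3⟩ := (Set.two_lt_ncard (s := Fx K Ω)).1 (by have := c.four_le; omega)
  exact ⟨a, b, d, ha, hb, hd, h1, h2, h3⟩

/-- Counting in a transitive action. -/
theorem cnt [Finite G] {Λ : Type*} [MulAction G Λ] [Finite Λ] [IsPretransitive G Λ] (a : Λ) (B : Set Λ) :
    {g : G | g • a ∈ B}.ncard * Nat.card Λ = B.ncard * Nat.card G := by
  have e := QuotientGroup.card_preimage_mk (stabilizer G a) (ofQuotientStabilizer G a ⁻¹' B)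
  rw [Nat.card_preimage_of_injective (injective_ofQuotientStabilizer G a) fun b _ => by
    obtain ⟨g, rfl⟩ := exists_smul_eq G a b
    exact ⟨g, rfl⟩] at e
  rw [← (stabilizer G a).card_mul_index, index_stabilizer_of_transitive, ← mul_assoc, mul_comm B.ncard]
  exact congrArg (· * _) e

end Cfsg.Agent.PrF
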