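import Mathlib

/-!
# PrF: fixed points of pronormal subgroups (S3399) -- definitions

`G` acts on the finite set `Ω`, `K ≤ G` is pronormal, `F = Fx K Ω` its fixed points, `h = F.ncard`, `Δ = Fᶜ`.  The sets `g • F` are
the "members".  `dd K Γ = #Γ - 2 #(Γ ∩ F)`.  Theorem: `G` transitive, `F ≠ univ` ⟹ `1 ≤ dd K univ`, and equality forces
2-transitivity.  A minimal counterexample `CE` is 3-transitive of degree `2 h`.
-/

namespace Cfsg.Agent.PrF
open MulAction Subgroup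
open scoped Pointwise

universe u v

section
variable {G : Type*} [Group G] {Ω : Type*} [MulAction G Ω]

/-- Pronormal: `g n ∈ ⟨K, g K g⁻¹⟩` for some `n` normalising `K`. -/
def Prn (K : Subgroup G) : Prop :=
  ∀ g : G, ∃ n ∈ normalizer (K : Set G), ∀ R : Subgroup G, K ≤ R → (∀ k ∈ K, g * k * g⁻¹ ∈ R) → g * n ∈ R

/-- The fixed points. -/
def Fx (K : Subgroup G) (Ω : Type*) [MulAction G Ω] : Set Ω := {x | ∀ k ∈ K, k • x = x}

/-- `Γ` is `R`-invariant. -/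
def Inv (R : Subgroup G) (Γ : Set Ω) : Prop := ∀ g ∈ R, ∀ x ∈ Γ, g • x ∈ Γ

/-- The `R`-orbit of `x`. -/
def orb (R : Subgroup G) (x : Ω) : Set Ω := {y | ∃ g ∈ R, g • x = y}

/-- `R` is transitive on the invariant set `Γ`. -/
def Tr (R : Subgroup G) (Γ : Set Ω) : Prop := Inv R Γ ∧ ∀ x ∈ Γ, ∀ y ∈ Γ, ∃ g ∈ R, g • x = y

/-- `R` is 2-transitive on `Γ`. -/
def Tr2 (R : Subgroup G) (Γ : Set Ω) : Prop :=
  ∀ x ∈ Γ, ∀ y ∈ Γ, ∀ x' ∈ Γ, ∀ y' ∈ Γ, x ≠ y → x' ≠ y' → ∃ g ∈ R, g • x = x' ∧ g • y = y'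

/-- Moved points minus fixed points. -/
noncomputable def dd (K : Subgroup G) (Γ : Set Ω) : ℤ := (Γ.ncard : ℤ) - 2 * ((Γ ∩ Fx K Ω).ncard : ℤ)

/-- The result. -/
def Res (K R : Subgroup G) (Γ : Set Ω) : Prop := 1 ≤ dd K Γ ∧ (dd K Γ = 1 → Tr2 R Γ)

/-- The result for proper orbits of overgroups of `K`. -/
def IH (K : Subgroup G) (Ω : Type*) [MulAction G Ω] : Prop :=
  ∀ (R : Subgroup G) (Γ : Set Ω), K ≤ R → Tr R Γ → Γ ≠ Set.univ → ¬ Γ ⊆ Fx K Ω → Res K R Γ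

/-- `k`-transitivity. -/
abbrev Kt (G : Type*) [Group G] (Ω : Type*) [MulAction G Ω] (k : ℕ) : Prop := IsMultiplyPretransitive G Ω k

/-- The minimal counterexample. -/
structure CE (K : Subgroup G) (Ω : Type*) [MulAction G Ω] : Prop where
  prn : Prn K
  ih : IH K Ω
  ne : Fx K Ω ≠ Set.univ
  half : Nat.card Ω = 2 * (Fx K Ω).ncard
  t3 : Kt G Ω 3

/-- The intersection of the members containing `S`. -/
def cl (K : Subgroup G) (S : Set Ω) : Set Ω := {y | ∀ g : G, S ⊆ g • Fx K Ω → y ∈ g • Fx K Ω}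

/-- Small supports in degree `n`. -/
def Sm (n m : ℕ) : Prop := m ≤ 5 ∨ 2 * m + 5 ≤ n

/-- `(a', b', c', d')` is conjugate to `(a, b, c, d)`. -/
def Cj4 (G : Type*) [Group G] [MulAction G Ω] (a b c d a' b' c' d' : Ω) : Prop :=
  ∃ g : G, g • a = a' ∧ g • b = b' ∧ g • c = c' ∧ g • d = d'

/-- Three distinct fixed points. -/
structure Tri (K : Subgroup G) (α β γ : Ω) : Prop where
  a : α ∈ Fx K Ω
  b : β ∈ Fx K Ω
  c : γ ∈ Fx K Ω
  ab : α ≠ β
  ac : α ≠ γ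
  bc : β ≠ γ

/-- The pointwise stabiliser of three points. -/
abbrev J3 (G : Type*) [Group G] [MulAction G Ω] (α β γ : Ω) : Subgroup G := fixingSubgroup G ({α, β, γ} : Set Ω)

end

/-- The theorem in degree `n`. -/
def Th (n : ℕ) : Prop :=
  ∀ (G : Type u) [Group G] [Finite G] (Ω : Type v) [MulAction G Ω] [Finite Ω] (K : Subgroup G),
    Nat.card Ω = n → Prn K → IsPretransitive G Ω → Fx K Ω ≠ Set.univ → Res K ⊤ (Set.univ : Set Ω)

end Cfsg.Agent.PrF
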