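import Cfsg.Agent.PrF.Mom

/-!
The 4-transitive case without small supports.  Read `PrF/Defs` and the signatures of `PrF/Bas`, `PrF/Dd`, `PrF/Mom`.  `F = Fx K Ω`, `h = #F = #Fᶜ ≥ 5` (`CE.lt`),
nonempty `K`-invariant subsets of `Fᶜ` have at least `5` points (`Prn.lt_ncard`).
-/

namespace Cfsg.Agent.PrF
open MulAction Subgroup
open scoped Pointwise

universe u v

variable {G : Type u} [Group G] [Finite G] {Ω : Type v} [MulAction G Ω] [Finite Ω] {K R : Subgroup G}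

/-- No element of `N(K)` has a small nonempty support on `F`. -/
def NoS (K : Subgroup G) (Ω : Type v) [MulAction G Ω] : Prop :=
  ∀ n ∈ normalizer (K : Set G), ∀ W ⊆ Fx K Ω, Sm (Fx K Ω).ncard W.ncard → (∀ x ∈ Fx K Ω, x ∉ W → n • x = x) → ∀ x ∈ Fx K Ω, n • x = x

/-- `F \ W` is closed. -/
def Co (K : Subgroup G) (W : Set Ω) : Prop := W ⊆ Fx K Ω ∧ cl K (Fx K Ω \ W) ⊆ Fx K Ω \ W

theorem co_diff (K : Subgroup G) (g : G) : Co K (Fx K Ω \ g • Fx K Ω) := by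
  exact ⟨Set.sdiff_subset, fun y hy => ⟨cl_subset_Fx Set.sdiff_subset hy, fun c => c.2
    (cl_subset (fun x hx => by_contra fun k => hx.2 ⟨hx.1, k⟩) hy)⟩⟩

theorem Co.union {W W' : Set Ω} (h : Co K W) (h' : Co K W') : Co K (W ∪ W') := by
  refine ⟨Set.union_subset h.1 h'.1, fun y hy => ?_⟩
  have a := h.2 (cl_mono K (Set.sdiff_subset_sdiff_right Set.subset_union_left) hy)
  have b := h'.2 (cl_mono K (Set.sdiff_subset_sdiff_right Set.subset_union_right) hy)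
  exact ⟨a.1, fun c => c.elim a.2 b.2⟩

theorem Co.smul {W : Set Ω} (h : Co K W) {n : G} (hn : n ∈ normalizer (K : Set G)) : Co K (n • W) := by
  have e : Fx K Ω \ n • W = n • (Fx K Ω \ W) := by rw [Set.smul_set_sdiff, norm_smul_Fx hn]
  refine ⟨?_, ?_⟩
  · rw [← norm_smul_Fx hn]
    exact Set.smul_set_mono h.1
  · rw [e, ← smul_cl]
    exact Set.smul_set_mono h.2

omit [Finite G] in
theorem fa_count (O : Ω → Set Ω) (m : ℕ) (W : Set Ω) : ∀ T : Set Ω, (∀ β ∈ W, O β ⊆ T ∧ m ≤ (O β).ncard) →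
    (∀ β ∈ W, ∀ γ ∈ W, β ≠ γ → Disjoint (O β) (O γ)) → m * W.ncard ≤ T.ncard := by
  induction W, W.toFinite using Set.Finite.induction_on with
  | empty => simp
  | @insert a W ha _ ih =>
    intro T h1 h2
    have a1 := h1 a (Set.mem_insert _ _)
    have a2 := ih (T \ O a) (fun β hβ => ⟨Set.subset_sdiff.2 ⟨(h1 β (Set.mem_insert_of_mem _ hβ)).1,
      h2 β (Set.mem_insert_of_mem _ hβ) a (Set.mem_insert _ _) fun e => ha (e ▸ hβ)⟩,
      (h1 β (Set.mem_insert_of_mem _ hβ)).2⟩) fun β hβ γ hγ =>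
        h2 β (Set.mem_insert_of_mem _ hβ) γ (Set.mem_insert_of_mem _ hγ)
    have a3 := Set.ncard_sdiff_add_ncard_of_subset a1.1
    rw [Set.ncard_insert_of_notMem ha, mul_add]
    omega

/-- PROOF.  `J = fixingSubgroup G (F \ W) ≥ K`.  For `β ∈ W`: `orb J β ∩ F = {β}` (`Prn.witt` in `J`, `hs`), `¬ orb J β ⊆ F` (`Prn.mem_cl`), so `O β = orb J β \ F` is nonempty,
`K`-invariant, `#(O β) ≥ 5`, and the `O β` are pairwise disjoint subsets of `Fᶜ` (`Finset.card_biUnion`, or induction on `W`). -/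
theorem CE.five_le (c : CE K Ω) (h4 : Kt G Ω 4) (hs : NoS K Ω) {W : Set Ω} (hW : Co K W) (hm : Sm (Fx K Ω).ncard W.ncard) :
    5 * W.ncard ≤ (Fx K Ω).ncard := by
  have hJ : K ≤ fixingSubgroup G (Fx K Ω \ W) := le_fixing Set.sdiff_subset
  have a : ∀ β ∈ W, ∀ y ∈ orb (fixingSubgroup G (Fx K Ω \ W)) β, y ∈ Fx K Ω → y = β := by
    rintro β hβ _ ⟨g, hg, rfl⟩ hy
    obtain ⟨n, h1, h2, h3⟩ := c.prn.witt (Ω := Ω) hJ hg
    rw [← h3 β (hW.1 hβ) hy]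
    exact hs n h2 W hW.1 hm (fun x hx hx' => (mem_fixingSubgroup_iff G).1 h1 x ⟨hx, hx'⟩) β (hW.1 hβ)
  rw [← c.ncard_compl]
  refine fa_count (fun β => orb (fixingSubgroup G (Fx K Ω \ W)) β \ Fx K Ω) 5 W _ (fun β hβ => ⟨fun _ h => h.2, ?_⟩)
    fun β hβ γ hγ hne => (disjoint_orb fun k => hne (a β hβ γ k (hW.1 hγ)).symm).mono Set.sdiff_subset Set.sdiff_subset
  exact c.prn.lt_ncard h4 c.four_le (((tr_orb _ β).1.mono hJ).diff inv_Fx)
    (Set.sdiff_nonempty.2 fun k => (hW.2 ((c.prn.mem_cl Set.sdiff_subset).2 k)).2 hβ) Set.disjoint_sdiff_left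

/-- PROOF.  Take a nonempty small `Co` set `W` of maximal size `m`; `5 m ≤ h`, so there is `z ∈ F \ W`.  If `W = {w}` take `n ∈ N(K)` with `n w = z`, otherwise `w₁ ≠ w₂` in `W` and
`n w₁ = w₁`, `n w₂ = z` (transitivity, `Prn.witt`).  `W' = W ∪ n W` is `Co`, larger, of size `≤ 2` resp. `≤ 2 m - 1`, hence small (`omega`). -/
theorem CE.not_small (c : CE K Ω) (h4 : Kt G Ω 4) (hs : NoS K Ω) {W : Set Ω} (hW : Co K W) (hn : W.Nonempty) :
    ¬ Sm (Fx K Ω).ncard W.ncard := by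
  intro hm
  obtain ⟨W, ⟨hW, hn, hm⟩, mx⟩ := Set.exists_max_image {W : Set Ω | Co K W ∧ W.Nonempty ∧ Sm (Fx K Ω).ncard W.ncard}
    Set.ncard (Set.toFinite _) ⟨W, hW, hn, hm⟩
  have h5 := c.five_le h4 hs hW hm
  have h0 : 0 < W.ncard := (Set.ncard_pos W.toFinite).2 hn
  obtain ⟨z, hz, hz'⟩ := Set.exists_mem_notMem_of_ncard_lt_ncard (s := W) (t := Fx K Ω) (by omega)
  obtain ⟨n, h1, h2, h3⟩ : ∃ n ∈ normalizer (K : Set G), z ∈ n • W ∧ (W.ncard = 1 ∨ (W ∩ n • W).Nonempty) := by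
    by_cases h1 : W.ncard = 1
    · obtain ⟨w, rfl⟩ := Set.ncard_eq_one.1 h1
      obtain ⟨g, hg⟩ := c.t3.set (S := {w}) (T := {z}) (by have := c.half; have := c.four_le; omega) (by simp) (by simp)
      rw [Set.smul_set_singleton, Set.singleton_eq_singleton_iff] at hg
      obtain ⟨n, -, h2, h3⟩ := c.prn.witt (Ω := Ω) le_top (mem_top g)
      exact ⟨n, h2, ⟨w, rfl, (h3 w (hW.1 rfl) (hg ▸ hz)).trans hg⟩, Or.inl h1⟩
    · obtain ⟨w, w', hw, hw', hne⟩ := (Set.one_lt_ncard_iff W.toFinite).1 (by omega)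
      have b : w ≠ z := fun e => hz' (e ▸ hw)
      have b' : w' ≠ z := fun e => hz' (e ▸ hw')
      obtain ⟨g, e1, e2, -⟩ := c.t3.ex3 hne b b' b hne b'.symm
      obtain ⟨n, -, h2, h3⟩ := c.prn.witt (Ω := Ω) le_top (mem_top g)
      exact ⟨n, h2, ⟨w', hw', (h3 w' (hW.1 hw') (e2 ▸ hz)).trans e2⟩,
        Or.inr ⟨w, hw, w, hw, (h3 w (hW.1 hw) (e1.symm ▸ hW.1 hw)).trans e1⟩⟩
  have a1 := Set.ncard_union_add_ncard_inter W (n • W)
  rw [Set.ncard_smul_set] at a1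
  have a2 : W.ncard < (W ∪ n • W).ncard :=
    Set.ncard_lt_ncard ⟨Set.subset_union_left, fun k => hz' (k (Or.inr h2))⟩
  refine a2.not_ge (mx _ ⟨hW.union (hW.smul h1), hn.inl, ?_⟩)
  replace h3 := h3.imp_right (Set.ncard_pos (Set.toFinite _)).2
  unfold Sm
  omega

/-- PROOF.  By `CE.mom` some member `F₂ ≠ F` has `2 l > h`, `l = #(F ∩ F₂)`; choose `F₂` with `l` maximal, `L = F ∩ F₂`, `e = h - l = #(F \ F₂) = #(F₂ \ F)`.  `not_small`
(`co_diff`): `e ≥ 6`, `2 e + 5 > h > 2 e`.  Two different members containing `L` meet exactly in `L` (translate to `F`, maximality), so for `κ, κ' ∈ K` the sets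
`κ B`, `κ' B` (`B = F₂ \ F`, `κ B = κ F₂ \ F`, `κ F₂ ⊇ L`) are equal or disjoint.  `K` does not stabilise `F₂` (`Prn.eq_of_inv`), so `B' = u B` is disjoint from `B` for
some `u ∈ K`.  `D = Fᶜ \ (B ∪ B')` has `h - 2 e ∈ [1, 4]` points, so each `κ B` (size `e`) meets `B` or `B'`, and equals `B` or `B'`.  Hence `B ∪ B'` and `D` are
`K`-invariant, against `Prn.lt_ncard`. -/
theorem CE.fiveA (c : CE K Ω) (h4 : Kt G Ω 4) (hs : NoS K Ω) : False := by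
  refine c.mom fun g₀ hg₀ => le_of_not_gt fun h₀ => ?_
  obtain ⟨g, hg, mx⟩ := Set.exists_max_image {g : G | g • Fx K Ω ≠ Fx K Ω} (fun g => (Fx K Ω ∩ g • Fx K Ω).ncard)
    (Set.toFinite _) ⟨g₀, hg₀⟩
  have h1 := h₀.trans_le (Nat.mul_le_mul_left 2 (mx g₀ hg₀))
  have h2 := Set.ncard_inter_add_ncard_sdiff_eq_ncard (Fx K Ω) (g • Fx K Ω)
  have h3 := Set.ncard_inter_add_ncard_sdiff_eq_ncard (g • Fx K Ω) (Fx K Ω)
  rw [Set.inter_comm, Set.ncard_smul_set] at h3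
  have h5 := c.not_small h4 hs (co_diff K g) (Set.sdiff_nonempty.2 fun k =>
    hg (Set.eq_of_subset_of_ncard_le k (Set.ncard_smul_set _ _).le).symm)
  have hL : ∀ κ ∈ K, Fx K Ω ∩ g • Fx K Ω ⊆ κ • g • Fx K Ω := fun κ hκ x hx => ⟨x, hx.2, hx.1 κ hκ⟩
  have hB : ∀ κ ∈ K, κ • (g • Fx K Ω \ Fx K Ω) = κ • g • Fx K Ω \ Fx K Ω := fun κ hκ => by
    rw [Set.smul_set_sdiff, inv_Fx.smul_eq hκ]
  have hd : ∀ κ ∈ K, ∀ κ' ∈ K, κ • g • Fx K Ω ≠ κ' • g • Fx K Ω →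
      Disjoint (κ • (g • Fx K Ω \ Fx K Ω)) (κ' • (g • Fx K Ω \ Fx K Ω)) := fun κ hκ κ' hκ' hne => by
    have a := mx ((κ * g)⁻¹ * (κ' * g)) fun e => hne (by
      rw [mul_smul, inv_smul_eq_iff, mul_smul, mul_smul] at e
      exact e.symm)
    rw [← Set.ncard_smul_set (κ * g), Set.smul_set_inter, mul_smul _ (κ' * g), smul_inv_smul, mul_smul, mul_smul] at a
    have b := Set.eq_of_subset_of_ncard_le (Set.subset_inter (hL κ hκ) (hL κ' hκ')) a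
    rw [hB κ hκ, hB κ' hκ', Set.disjoint_left]
    exact fun x hx hx' => hx.2 (b.ge ⟨hx.1, hx'.1⟩).1
  obtain ⟨u, hu, hu'⟩ : ∃ u ∈ K, (1 : G) • g • Fx K Ω ≠ u • g • Fx K Ω := by
    by_contra! k
    exact hg (c.prn.eq_of_inv fun u hu x hx => by
      rw [← one_smul G (g • Fx K Ω), k u hu]
      exact Set.smul_mem_smul_set hx)
  have d1 := hd 1 (one_mem _) u hu hu'
  have hc : ∀ κ : G, (κ • (g • Fx K Ω \ Fx K Ω)).ncard = (g • Fx K Ω \ Fx K Ω).ncard := fun κ => Set.ncard_smul_set _ _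
  have hs : ∀ κ ∈ K, κ • (g • Fx K Ω \ Fx K Ω) ⊆ (Fx K Ω)ᶜ := fun κ hκ => by
    rw [hB κ hκ]; exact fun _ h => h.2
  have d2 := Set.ncard_sdiff_add_ncard_of_subset (Set.union_subset (hs 1 (one_mem _)) (hs u hu))
  rw [Set.ncard_union_eq d1, hc, hc, c.ncard_compl] at d2
  unfold Sm at h5
  have d3 : ∀ κ ∈ K, κ • (g • Fx K Ω \ Fx K Ω) ⊆
      (1 : G) • (g • Fx K Ω \ Fx K Ω) ∪ u • (g • Fx K Ω \ Fx K Ω) := fun κ hκ => by
    by_cases k1 : κ • g • Fx K Ω = (1 : G) • g • Fx K Ω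
    · rw [hB κ hκ, hB 1 (one_mem _), k1]; exact Set.subset_union_left
    by_cases k2 : κ • g • Fx K Ω = u • g • Fx K Ω
    · rw [hB κ hκ, hB u hu, k2]; exact Set.subset_union_right
    have := Set.ncard_le_ncard (Set.subset_sdiff.2 ⟨hs κ hκ,
      Set.disjoint_union_right.2 ⟨hd κ hκ 1 (one_mem _) k1, hd κ hκ u hu k2⟩⟩)
    rw [hc] at this
    omega
  have d4 : Inv K ((1 : G) • (g • Fx K Ω \ Fx K Ω) ∪ u • (g • Fx K Ω \ Fx K Ω)) := by
    rintro κ hκ _ (⟨x, hx, rfl⟩ | ⟨x, hx, rfl⟩)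
    · exact d3 _ (mul_mem hκ (one_mem _)) ⟨x, hx, mul_smul _ _ _⟩
    · exact d3 _ (mul_mem hκ hu) ⟨x, hx, mul_smul _ _ _⟩
  have d5 : Inv K (Fx K Ω)ᶜ := by
    rw [Set.compl_eq_univ_sdiff]
    exact Inv.diff (fun _ _ _ _ => trivial) inv_Fx
  have := c.prn.lt_ncard h4 c.four_le (d5.diff d4) ((Set.ncard_pos (Set.toFinite _)).1 (by omega))
    (Set.disjoint_left.2 fun _ h => h.1)
  omega

end Cfsg.Agent.PrF
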