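import Cfsg.Agent.PrF.Mom
import Cfsg.Agent.S0711

/-!
The 4-transitive case with 3-cycles on `F`.  Read `PrF/Defs` and the signatures of `PrF/Bas`, `PrF/Dd`, `PrF/Mom`.  `F = Fx K Ω`, `h = #F = #Fᶜ`.
-/

namespace Cfsg.Agent.PrF
open MulAction Subgroup
open scoped Pointwise

universe u v

variable {G : Type u} [Group G] [Finite G] {Ω : Type v} [MulAction G Ω] [Finite Ω] {K R : Subgroup G}

/-- `N(K)` induces all 3-cycles on `F`. -/
def Cyc (K : Subgroup G) (Ω : Type v) [MulAction G Ω] : Prop :=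
  ∀ a ∈ Fx K Ω, ∀ b ∈ Fx K Ω, ∀ d ∈ Fx K Ω, a ≠ b → a ≠ d → b ≠ d → ∃ n ∈ normalizer (K : Set G),
    n • a = b ∧ n • b = d ∧ n • d = a ∧ ∀ x ∈ Fx K Ω, x ≠ a → x ≠ b → x ≠ d → n • x = x

/-- PROOF.  `X = (toPermHom G Ω).range` is `k`-transitive; an element of `K` moving a point has support in `Fᶜ`.  If `h < 2 k - 2`, `S0711.result` gives `alternatingGroup Ω ≤ X`,
so `X`, and `G`, is `(2 h - 2)`-transitive (`alternatingGroup.isMultiplyPretransitive`), against `CE.lt` (`four_le`). -/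
theorem CE.bound (c : CE K Ω) {k : ℕ} (ht : Kt G Ω k) (h3 : 3 ≤ k) (hk : k ≤ Nat.card Ω) : 2 * k ≤ (Fx K Ω).ncard + 2 := by
  classical
  have := Fintype.ofFinite Ω
  by_contra hlt
  obtain ⟨x, hx⟩ := (Set.ne_univ_iff_exists_notMem _).1 c.ne
  simp only [mem_Fx, not_forall] at hx
  obtain ⟨g, hg, hx⟩ := hx
  have tX : Kt (toPermHom G Ω).range Ω k := kt_of fun a b ha hb =>
    let ⟨g, e⟩ := ht.ex ha hb; ⟨⟨toPermHom G Ω g, g, rfl⟩, e⟩
  have hs : (toPermHom G Ω g).support.card ≤ (Fx K Ω).ncard := by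
    rw [← Set.ncard_coe_finset, ← c.ncard_compl]
    exact Set.ncard_le_ncard fun y hy hF => Equiv.Perm.mem_support.1 hy (hF g hg)
  have le := (S0711.result _ h3 (Nat.card_eq_fintype_card (α := Ω) ▸ hk) tX _ ⟨g, rfl⟩
    (fun e => hx (congrArg (fun σ : Equiv.Perm Ω => σ x) e)) (by omega)).2
  have t2 : Kt G Ω (Nat.card Ω - 2) := kt_of fun a b ha hb => by
    obtain ⟨σ, e⟩ := Kt.ex (alternatingGroup.isMultiplyPretransitive Ω) ha hb
    obtain ⟨g', hg'⟩ := le σ.2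
    exact ⟨g', fun i => (congrArg (fun σ : Equiv.Perm Ω => σ (a i)) hg').trans (e i)⟩
  have h1 := c.lt t2 (Nat.sub_le _ _)
  have h2 := c.four_le
  have h4 := c.half
  omega

/-- PROOF.  `CE.mom`: if `#(F ∩ g F) ≥ k` take `S' ⊆ F ∩ g F` of size `k`, `t S = S'` (`Kt.set`); `cl S' = t • cl S = t F` has size `h` and lies in `F` and in `g F`, so
`g F = F`.  Otherwise `2 (k - 1) ≤ h` (`bound`). -/
theorem CE.cl_ne (c : CE K Ω) {k : ℕ} (ht : Kt G Ω k) (h3 : 3 ≤ k) (hk : k ≤ Nat.card Ω) {S : Set Ω} (hS : S.ncard = k) :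
    cl K S ≠ Fx K Ω := by
  intro e
  refine c.mom fun g hg => ?_
  have hb := c.bound ht h3 hk
  by_contra hlt
  obtain ⟨S', h1, h2⟩ := Set.exists_subset_card_eq (s := Fx K Ω ∩ g • Fx K Ω) (n := k) (by omega)
  obtain ⟨t, ht'⟩ := ht.set hk (hS.trans h2.symm) hS.le
  have hc : (cl K S').ncard = (Fx K Ω).ncard := by rw [← ht', ← smul_cl, e, Set.ncard_smul_set]
  have a1 := Set.eq_of_subset_of_ncard_le (cl_subset_Fx (h1.trans Set.inter_subset_left)) hc.ge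
  have a2 := Set.eq_of_subset_of_ncard_le (cl_subset (h1.trans Set.inter_subset_right))
    (by rw [hc, Set.ncard_smul_set])
  exact hg (a2.symm.trans a1)

theorem CE.fc_notMem (c : CE K Ω) (hc : Cyc K Ω) {k : ℕ} (ht : Kt G Ω k) (h3 : 3 ≤ k) (hk : k ≤ Nat.card Ω) {S : Set Ω}
    (hS : S.ncard = k) (SF : S ⊆ Fx K Ω) {β : Ω} (hβ : β ∈ Fx K Ω) (nβ : β ∉ S) : β ∉ cl K S := by
  intro hb
  refine c.cl_ne ht h3 hk hS ((cl_subset_Fx SF).antisymm fun β' hβ' => ?_)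
  by_cases h1 : β' ∈ S
  · exact subset_cl K S h1
  by_cases h2 : β = β'
  · exact h2 ▸ hb
  obtain ⟨s, s', hs, hs', ss⟩ := (Set.one_lt_ncard_iff (s := S)).1 (by omega)
  have ne : ∀ {x y : Ω}, x ∈ S → y ∉ S → x ≠ y := fun hx hy e => hy (e ▸ hx)
  obtain ⟨n, -, a1, -, a3, a4⟩ := hc β hβ β' hβ' s (SF hs) h2 (ne hs nβ).symm (ne hs h1).symm
  obtain ⟨m, -, b1, b2, b3, b4⟩ := hc s (SF hs) β hβ s' (SF hs') (ne hs nβ) ss (ne hs' nβ).symm
  have e : (m * n) • β = β' := by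
    rw [mul_smul, a1, b4 β' hβ' (ne hs h1).symm (Ne.symm h2) (ne hs' h1).symm]
  refine cl_mono K (S := (m * n) • S) ?_ (smul_cl K _ S ▸ e ▸ Set.smul_mem_smul_set hb)
  rintro _ ⟨x, hx, rfl⟩
  show (m * n) • x ∈ S
  by_cases e1 : x = s
  · rwa [mul_smul, e1, a3, b2]
  rw [mul_smul, a4 x (SF hx) (ne hx nβ) (ne hx h1) e1]
  by_cases e2 : x = s'
  · rwa [e2, b3]
  · rwa [b4 x (SF hx) e1 (ne hx nβ) e2]

/-- PROOF.  `k < h` (`CE.lt`).  `S ⊆ F` of size `k`, `J = fixingSubgroup G S ≥ K`.  (1) No `β ∈ F \ S` lies in `cl S`: otherwise every `β' ∈ F \ S` does, since some `n ∈ N(K)` has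
`n S = S`, `n β = β'` (with `s ≠ s'` in `S`: first the 3-cycle `β → β' → s → β`, then `s → β → s' → s`; the product swaps `β, β'` and `s, s'`; `smul_cl`), so `cl S = F`,
against `cl_ne`.  So for `β ∈ F \ S`, `Y = orb J β ⊄ F` (`Prn.mem_cl`), `#(Y \ F) ≥ k + 1` (`Prn.lt_ncard`), `#(Y \ F) > #(Y ∩ F)` (`IH.orb`, `dd_eq`).
(2) `F \ S ⊆ Y`: if `β' ∈ F \ S` is not in `Y`, there is no third point in `F \ S` (a 3-cycle on `β, β', β''` lies in `J`), so `h = k + 2`, but the two orbits give `2 (k + 1) ≤ h`.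
(3) `Fᶜ \ Y` is `K`-invariant of size `≤ h - (h - k + 1) = k - 1`, so empty (`Prn.lt_ncard`).  Thus `Y = Sᶜ`; `Kt.succ`. -/
theorem CE.step (c : CE K Ω) (hc : Cyc K Ω) {k : ℕ} (ht : Kt G Ω k) (h3 : 3 ≤ k) (hk : k ≤ Nat.card Ω) : Kt G Ω (k + 1) := by
  have kh := c.lt ht hk
  obtain ⟨S, SF, hS⟩ := Set.exists_subset_card_eq kh.le
  have KJ := le_fixing (K := K) SF
  have nF : ∀ β ∈ Fx K Ω \ S, ¬ orb (fixingSubgroup G S) β ⊆ Fx K Ω := fun β hβ e =>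
    c.fc_notMem hc ht h3 hk hS SF hβ.1 hβ.2 ((c.prn.mem_cl SF).2 e)
  have hA : ∀ β ∈ Fx K Ω \ S, k < (orb (fixingSubgroup G S) β \ Fx K Ω).ncard := fun β hβ =>
    c.prn.lt_ncard ht kh.le (((tr_orb _ β).1.mono KJ).diff inv_Fx) (Set.diff_nonempty.2 (nF β hβ))
      Set.disjoint_sdiff_left
  have hD : (Fx K Ω \ S).ncard = (Fx K Ω).ncard - k := by rw [Set.ncard_diff SF, hS]
  obtain ⟨β, hβ⟩ : (Fx K Ω \ S).Nonempty := Set.nonempty_of_ncard_ne_zero (by omega)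
  obtain ⟨s, hs⟩ : S.Nonempty := Set.nonempty_of_ncard_ne_zero (by omega)
  have hB := (c.ih.orb KJ (inv_compl_fixing S) (fun e => (e.ge (Set.mem_univ s)) hs) hβ.2 (nF β hβ)).1
  rw [dd_eq] at hB
  have hC := c.ncard_compl
  have h2 : Fx K Ω \ S ⊆ orb (fixingSubgroup G S) β := fun β' hβ' => by
    by_contra hn
    have ne : ∀ {x y : Ω}, x ∈ S → y ∈ Fx K Ω \ S → x ≠ y := fun hx hy e => hy.2 (e ▸ hx)
    have sub : Fx K Ω \ S ⊆ {β, β'} := fun x hx => by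
      by_contra hx'
      simp only [Set.mem_insert_iff, Set.mem_singleton_iff, not_or] at hx'
      obtain ⟨n, -, a1, -, -, a4⟩ := hc β hβ.1 β' hβ'.1 x hx.1 (fun e => hn (e ▸ self_mem_orb _ _))
        (Ne.symm hx'.1) (Ne.symm hx'.2)
      exact hn ⟨n, (mem_fixingSubgroup_iff G).2 fun y hy =>
        a4 y (SF hy) (ne hy hβ) (ne hy hβ') (ne hy hx), a1⟩
    have c1 := (Set.ncard_le_ncard sub).trans (Set.ncard_insert_le _ _)
    rw [Set.ncard_singleton] at c1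
    have c2 := Set.ncard_union_eq ((disjoint_orb hn).mono (Set.diff_subset (t := Fx K Ω))
      (Set.diff_subset (t := Fx K Ω)))
    have c3 : (orb (fixingSubgroup G S) β \ Fx K Ω ∪ orb (fixingSubgroup G S) β' \ Fx K Ω).ncard ≤
        (Fx K Ω)ᶜ.ncard := Set.ncard_le_ncard (Set.union_subset (fun _ h => h.2) fun _ h => h.2)
    have := hA β hβ
    have := hA β' hβ'
    omega
  have h4 : (Fx K Ω)ᶜ ⊆ orb (fixingSubgroup G S) β := by
    by_contra hn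
    have c1 := c.prn.lt_ncard ht kh.le (((inv_compl_fixing (Fx K Ω)).mono (le_fixing subset_rfl)).diff
      ((tr_orb _ β).1.mono KJ)) (Set.diff_nonempty.2 hn) (Set.disjoint_left.2 fun _ h => h.1)
    have c2 := Set.ncard_union_eq (s := (Fx K Ω)ᶜ \ orb (fixingSubgroup G S) β)
      (t := orb (fixingSubgroup G S) β \ Fx K Ω) (Set.disjoint_left.2 fun _ h h' => h.2 h'.1)
    have c3 : ((Fx K Ω)ᶜ \ orb (fixingSubgroup G S) β ∪ orb (fixingSubgroup G S) β \ Fx K Ω).ncard ≤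
        (Fx K Ω)ᶜ.ncard := Set.ncard_le_ncard (Set.union_subset (fun _ h => h.1) fun _ h => h.2)
    have c4 : (Fx K Ω \ S).ncard ≤ (orb (fixingSubgroup G S) β ∩ Fx K Ω).ncard :=
      Set.ncard_le_ncard fun x hx => ⟨h2 hx, hx.1⟩
    omega
  have h5 : ∀ x ∉ S, x ∈ orb (fixingSubgroup G S) β := fun x hx =>
    (em (x ∈ Fx K Ω)).elim (fun h => h2 ⟨h, hx⟩) fun h => h4 h
  exact ht.succ hS fun x hx y hy => (tr_orb _ β).2 x (h5 x hx) y (h5 y hy)

/-- Induction from `c.t3`: `Kt G Ω k` for `3 ≤ k ≤ h`, against `CE.lt`. -/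
theorem CE.fiveC (c : CE K Ω) (hc : Cyc K Ω) : False := by
  have key : ∀ k, 3 ≤ k → k ≤ Nat.card Ω → Kt G Ω k := fun k hk => by
    induction k, hk using Nat.le_induction with
    | base => exact fun _ => c.t3
    | succ k h3 ih => exact fun h => c.step hc (ih (by omega)) h3 (by omega)
  have h1 := c.four_le
  have h2 := c.half
  have := c.lt (key _ (by omega) le_rfl) le_rfl
  omega

end Cfsg.Agent.PrF
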