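import Cfsg.Agent.PrF.Mom

/-!
Three points are closed.  Read `PrF/Defs` and the signatures of `PrF/Bas`, `PrF/Dd`, `PrF/Mom`.  `F = Fx K Ω`, `ℓ a b c = cl K {a, b, c}`.
-/

namespace Cfsg.Agent.PrF
open MulAction Subgroup
open scoped Pointwise

universe u v

variable {G : Type u} [Group G] [Finite G] {Ω : Type v} [MulAction G Ω] [Finite Ω] {K R : Subgroup G}

/-- All lines have the same size: `Kt.ex3`, `smul_cl`, `Set.ncard_smul_set`. -/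
theorem CE.cl_card (c : CE K Ω) {a b d a' b' d' : Ω} (h1 : a ≠ b) (h2 : a ≠ d) (h3 : b ≠ d) (h1' : a' ≠ b') (h2' : a' ≠ d')
    (h3' : b' ≠ d') : (cl K ({a, b, d} : Set Ω)).ncard = (cl K ({a', b', d'} : Set Ω)).ncard := by
  obtain ⟨g, rfl, rfl, rfl⟩ := c.t3.ex3 h1 h2 h3 h1' h2' h3'
  rw [← Set.ncard_smul_set g, smul_cl, Set.smul_set_insert, Set.smul_set_insert, Set.smul_set_singleton]

/-- Three distinct points of a line span it (`cl_cl`, equal sizes). -/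
theorem CE.cl_eq (c : CE K Ω) {a b d a' b' d' : Ω} (h1 : a ≠ b) (h2 : a ≠ d) (h3 : b ≠ d) (h1' : a' ≠ b') (h2' : a' ≠ d')
    (h3' : b' ≠ d') (h : ({a', b', d'} : Set Ω) ⊆ cl K {a, b, d}) : cl K ({a', b', d'} : Set Ω) = cl K {a, b, d} := by
  exact Set.eq_of_subset_of_ncard_le (cl_cl K h) (c.cl_card h1 h2 h3 h1' h2' h3').le

/-- PROOF.  Otherwise every line has a fourth point (`cl_card`).  Use `CE.mom`: let `F' = g F ≠ F`, `X = F ∩ F'`, `δ ∈ F \ F'` (equal sizes), and `a ∈ X` (if `X` is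
empty nothing to do).  For `b ∈ X \ {a}` choose `φ b ∈ ℓ a b δ \ {a, b, δ}`.  `φ b ∈ F` (`cl_subset_Fx`); `φ b ∉ F'`, otherwise `δ ∈ ℓ a b δ = ℓ a b (φ b) ⊆ F'`.
If `φ b = φ b'`, `b ≠ b'`, then `ℓ a b δ = ℓ a δ (φ b) = ℓ a b' δ` contains `a, b, b'`, so equals `ℓ a b b' ⊆ F'` and contains `δ`.  So `φ` injects `X \ {a}` into
`(F \ F') \ {δ}`: `x - 1 ≤ h - x - 1`. -/
theorem CE.cl3 (c : CE K Ω) {α β γ : Ω} (t : Tri K α β γ) : cl K ({α, β, γ} : Set Ω) ⊆ {α, β, γ} := by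
  by_contra n
  have four : ∀ {a b d : Ω}, a ≠ b → a ≠ d → b ≠ d → ∃ y ∈ cl K ({a, b, d} : Set Ω), y ∉ ({a, b, d} : Set Ω) :=
    fun {a b d} h1 h2 h3 => by
      by_contra! k
      refine n (Set.eq_of_subset_of_ncard_le (subset_cl K _) ?_).ge
      rw [c.cl_card t.ab t.ac t.bc h1 h2 h3, Set.ncard_eq_three.2 ⟨_, _, _, t.ab, t.ac, t.bc, rfl⟩,
        ← Set.ncard_eq_three.2 ⟨_, _, _, h1, h2, h3, rfl⟩]
      exact Set.ncard_le_ncard k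
  refine c.mom fun g hg => ?_
  obtain ⟨δ, d1, d2⟩ := Set.not_subset.1 fun k : Fx K Ω ⊆ g • Fx K Ω =>
    hg (Set.eq_of_subset_of_ncard_le k (Set.ncard_smul_set g _).le).symm
  rcases (Fx K Ω ∩ g • Fx K Ω).eq_empty_or_nonempty with e | ⟨a, ha⟩
  · simp [e]
  have nd : ∀ {b}, b ∈ Fx K Ω ∩ g • Fx K Ω → b ≠ δ := fun hb e => d2 (e ▸ hb.2)
  have sub : ∀ {x y z : Ω} {S : Set Ω}, x ∈ S → y ∈ S → z ∈ S → ({x, y, z} : Set Ω) ⊆ S := fun hx hy hz =>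
    Set.insert_subset hx (Set.insert_subset hy (Set.singleton_subset_iff.2 hz))
  have ex : ∀ b, ∃ y, b ∈ (Fx K Ω ∩ g • Fx K Ω) \ {a} → y ∈ cl K ({a, b, δ} : Set Ω) ∧ a ≠ y ∧ b ≠ y ∧ δ ≠ y :=
    fun b => by
      by_cases hb : b ∈ (Fx K Ω ∩ g • Fx K Ω) \ {a}
      · obtain ⟨y, h1, h2⟩ := four (Ne.symm hb.2) (nd ha) (nd hb.1)
        exact ⟨y, fun _ => ⟨h1, fun e => h2 (by simp [e]), fun e => h2 (by simp [e]), fun e => h2 (by simp [e])⟩⟩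
      · exact ⟨a, fun k => absurd k hb⟩
  choose φ hφ using ex
  have m : ∀ {x y z : Ω}, x ∈ cl K ({x, y, z} : Set Ω) ∧ y ∈ cl K ({x, y, z} : Set Ω) ∧
      z ∈ cl K ({x, y, z} : Set Ω) := ⟨subset_cl K _ (by simp), subset_cl K _ (by simp), subset_cl K _ (by simp)⟩
  have out : ∀ {b y}, b ∈ (Fx K Ω ∩ g • Fx K Ω) \ {a} → y ∈ cl K ({a, b, δ} : Set Ω) → a ≠ y → b ≠ y →
      y ∉ g • Fx K Ω := fun hb hy h1 h2 k => d2 (cl_subset (sub ha.2 hb.1.2 k) (by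
        rw [c.cl_eq (Ne.symm hb.2) (nd ha) (nd hb.1) (Ne.symm hb.2) h1 h2 (sub m.1 m.2.1 hy)]; exact m.2.2))
  have le : ((Fx K Ω ∩ g • Fx K Ω) \ {a}).ncard ≤ ((Fx K Ω \ g • Fx K Ω) \ {δ}).ncard := by
    refine Set.ncard_le_ncard_of_injOn φ (fun b hb => ?_) fun b hb b' hb' e => ?_
    · obtain ⟨h1, h2, h3, h4⟩ := hφ b hb
      exact ⟨⟨cl_subset_Fx (sub ha.1 hb.1.1 d1) h1, out hb h1 h2 h3⟩, h4.symm⟩
    by_contra ne
    obtain ⟨h1, h2, -, h4⟩ := hφ b hb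
    obtain ⟨h5, -⟩ := hφ b' hb'
    rw [← e] at h5
    refine out hb ?_ (Ne.symm hb'.2) ne hb'.1.2
    rw [← c.cl_eq (Ne.symm hb.2) (nd ha) (nd hb.1) (nd ha) h2 h4 (sub m.1 m.2.2 h1),
      c.cl_eq (Ne.symm hb'.2) (nd ha) (nd hb'.1) (nd ha) h2 h4 (sub m.1 m.2.2 h5)]
    exact m.2.1
  have e1 := Set.ncard_diff_singleton_add_one ha
  have e2 := Set.ncard_diff_singleton_add_one (s := Fx K Ω \ g • Fx K Ω) ⟨d1, d2⟩
  have e3 := Set.ncard_inter_add_ncard_diff_eq_ncard (Fx K Ω) (g • Fx K Ω)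
  omega

theorem Tri.subset {α β γ : Ω} (t : Tri K α β γ) : ({α, β, γ} : Set Ω) ⊆ Fx K Ω := by
  exact Set.insert_subset t.a (Set.insert_subset t.b (Set.singleton_subset_iff.2 t.c))

theorem mem_J3 {α β γ : Ω} {g : G} : g ∈ J3 G α β γ ↔ g • α = α ∧ g • β = β ∧ g • γ = γ := by
  simp [mem_fixingSubgroup_iff]

/-- `cl3`, `Prn.mem_cl`. -/
theorem CE.orb_not (c : CE K Ω) {α β γ : Ω} (t : Tri K α β γ) :
    ∀ y ∈ ({α, β, γ} : Set Ω)ᶜ, ¬ orb (J3 G α β γ) y ⊆ Fx K Ω := by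
  exact fun y hy k => hy (c.cl3 t ((c.prn.mem_cl t.subset).2 k))

/-- `dd_compl`. -/
theorem CE.dd3 (c : CE K Ω) {α β γ : Ω} (t : Tri K α β γ) : dd K ({α, β, γ} : Set Ω)ᶜ = 3 := by
  rw [dd_compl t.subset, c.dd0, Set.ncard_eq_three.2 ⟨_, _, _, t.ab, t.ac, t.bc, rfl⟩]
  rfl

end Cfsg.Agent.PrF
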