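import Cfsg.Agent.PrF.FourA

/-!
Generous 3-transitivity.  Read `PrF/Defs` and the signatures of `PrF/Bas`, `PrF/Dd`, `PrF/FourA`.  `F = Fx K Ω`, `J = J3 G α β γ ≥ K` (`le_fixing`),
`Z = {α, β, γ}ᶜ` is `J`-invariant, `dd K Z = 3`, every `J`-orbit in `Z` has `dd ≥ 1` (`IH.orb`, `orb_not`).
-/

namespace Cfsg.Agent.PrF
open MulAction Subgroup
open scoped Pointwise

universe u v

variable {G : Type u} [Group G] [Finite G] {Ω : Type v} [MulAction G Ω] [Finite Ω] {K R : Subgroup G}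

omit [Finite Ω] in
theorem fb_mem {α β γ y : Ω} : y ∈ ({α, β, γ} : Set Ω)ᶜ ↔ y ≠ α ∧ y ≠ β ∧ y ≠ γ := by
  simp [not_or]

theorem fb_ne (α β γ : Ω) : ({α, β, γ} : Set Ω)ᶜ ≠ Set.univ := fun h =>
  (fb_mem.1 (h.ge (Set.mem_univ α))).1 rfl

theorem CE.fb_res (c : CE K Ω) {α β γ y : Ω} (t : Tri K α β γ) (hy : y ∈ ({α, β, γ} : Set Ω)ᶜ) :
    Res K (J3 G α β γ) (orb (J3 G α β γ) y) :=
  c.ih.orb (le_fixing t.subset) (inv_compl_fixing _) (fb_ne α β γ) hy (c.orb_not t y hy)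

omit [Finite G] [Finite Ω] in
theorem fb_inv {g : G} {a b : Ω} (h : g • a = b) : g⁻¹ • b = a := by rw [← h, inv_smul_smul]

theorem fb_orb {α β γ x y : Ω} (h : y ∈ orb (J3 G α β γ) x) (s : Cj4 G α β γ x α β x γ) : Cj4 G α β γ y α β y γ := by
  obtain ⟨j, hj, e⟩ := h
  obtain ⟨j1, j2, j3⟩ := mem_J3.1 hj
  obtain ⟨s, s1, s2, s3, s4⟩ := s
  exact ⟨j * s * j⁻¹, by rw [mul_smul, mul_smul, fb_inv j1, s1, j1], by rw [mul_smul, mul_smul, fb_inv j2, s2, j2],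
    by rw [mul_smul, mul_smul, fb_inv j3, s3, e], by rw [mul_smul, mul_smul, fb_inv e, s4, j3]⟩

/-- PROOF.  `Y = orb J y`, `Tr2 J Y`.  Suppose `g₁ : (α, β, γ, y) ↦ (α, β, δ, δ')`.  Composing with elements of `J`, (*) for all `δ₁ ≠ δ₂` in `Y` some element maps
`(α, β, γ, y)` to `(α, β, δ₁, δ₂)`.  With `g₂ : ↦ (α, β, δ', δ)`, `s = g₁⁻¹ g₂` fixes `α, β` and swaps `γ, y`.  Let `B = insert γ Y`, `R = stabilizer G B ≥ K`.  For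
`ε = j • y ∈ Y` (`j ∈ J`) let `t = j s`: `t γ = ε`, `t y = γ`.  For `ε' ∈ Y`, `ε' ≠ ε`, take `g : (α, β, γ, y) ↦ (α, β, ε, ε')`; `t⁻¹ g ∈ J`, so `ε' = t ((t⁻¹ g) y) ∈ t Y`.  Thus
`B ⊆ t B`, `t B = B` (equal sizes).  So `Tr R B`, `α ∉ B`, `¬ B ⊆ F`, and `dd K B = dd K Y - 1 = 0` contradicts `c.ih`. -/
theorem CE.clique (c : CE K Ω) {α β γ y : Ω} (t : Tri K α β γ) (hy : y ∈ ({α, β, γ} : Set Ω)ᶜ)
    (h1 : dd K (orb (J3 G α β γ) y) = 1) {δ δ' : Ω} (hδ : δ ∈ orb (J3 G α β γ) y) (hδ' : δ' ∈ orb (J3 G α β γ) y) (hn : δ ≠ δ') :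
    ¬ Cj4 G α β γ y α β δ δ' := by
  rintro ⟨g₁, a1, b1, c1, d1⟩
  have T2 := (c.fb_res t hy).2 h1
  have hZ := (inv_compl_fixing (G := G) ({α, β, γ} : Set Ω)).orb_subset hy
  have hK : K ≤ J3 G α β γ := le_fixing t.subset
  have star : ∀ δ₁ ∈ orb (J3 G α β γ) y, ∀ δ₂ ∈ orb (J3 G α β γ) y, δ₁ ≠ δ₂ → Cj4 G α β γ y α β δ₁ δ₂ := by
    intro δ₁ m1 δ₂ m2 n
    obtain ⟨j, hj, e1, e2⟩ := T2 δ hδ δ' hδ' δ₁ m1 δ₂ m2 hn n
    obtain ⟨j1, j2, -⟩ := mem_J3.1 hj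
    exact ⟨j * g₁, by rw [mul_smul, a1, j1], by rw [mul_smul, b1, j2], by rw [mul_smul, c1, e1],
      by rw [mul_smul, d1, e2]⟩
  obtain ⟨g₂, a2, b2, c2, d2⟩ := star δ' hδ' δ hδ hn.symm
  have iB : Inv K (insert γ (orb (J3 G α β γ) y)) := by
    rintro k hk x (rfl | hx)
    · exact .inl (t.c k hk)
    · exact .inr ((tr_orb _ y).1 k (hK hk) x hx)
  have tr : ∀ x ∈ insert γ (orb (J3 G α β γ) y), ∃ g ∈ stabilizer G (insert γ (orb (J3 G α β γ) y)), g • γ = x := by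
    rintro ε (rfl | hε)
    · exact ⟨1, one_mem _, one_smul _ _⟩
    obtain ⟨j, hj, e⟩ := id hε
    obtain ⟨j1, j2, j3⟩ := mem_J3.1 hj
    have t1 : (j * (g₁⁻¹ * g₂)) • α = α := by rw [mul_smul, mul_smul, a2, fb_inv a1, j1]
    have t2 : (j * (g₁⁻¹ * g₂)) • β = β := by rw [mul_smul, mul_smul, b2, fb_inv b1, j2]
    have t3 : (j * (g₁⁻¹ * g₂)) • γ = ε := by rw [mul_smul, mul_smul, c2, fb_inv d1, e]
    have t4 : (j * (g₁⁻¹ * g₂)) • y = γ := by rw [mul_smul, mul_smul, d2, fb_inv c1, j3]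
    generalize j * (g₁⁻¹ * g₂) = u at t1 t2 t3 t4
    refine ⟨u, (Set.eq_of_subset_of_ncard_le ?_ (Set.ncard_smul_set _ _).le).symm, t3⟩
    rintro ε' (rfl | hε')
    · exact ⟨y, .inr (self_mem_orb _ y), t4⟩
    by_cases q : ε = ε'
    · exact ⟨γ, .inl rfl, t3.trans q⟩
    obtain ⟨g, g1, g2, g3, g4⟩ := star ε hε ε' hε' q
    refine ⟨(u⁻¹ * g) • y, .inr ⟨_, mem_J3.2 ⟨?_, ?_, ?_⟩, rfl⟩, ?_⟩
    · rw [mul_smul, g1, fb_inv t1]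
    · rw [mul_smul, g2, fb_inv t2]
    · rw [mul_smul, g3, fb_inv t3]
    · simp only [mul_smul, g4, smul_inv_smul]
  have r := (c.ih (stabilizer G (insert γ (orb (J3 G α β γ) y))) (insert γ (orb (J3 G α β γ) y))
    (fun k hk => iB.smul_eq hk) ⟨fun g hg x hx => (mem_stabilizer_iff.1 hg).le ⟨x, hx, rfl⟩, fun x hx z hz => by
      obtain ⟨g, hg, e1⟩ := tr x hx
      obtain ⟨g', hg', e2⟩ := tr z hz
      exact ⟨g' * g⁻¹, mul_mem hg' (inv_mem hg), by rw [mul_smul, fb_inv e1, e2]⟩⟩ (fun h => by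
      rcases h.ge (Set.mem_univ α) with h | h
      · exact t.ac h
      · exact (fb_mem.1 (hZ h)).1 rfl) fun h => c.orb_not t y hy ((Set.subset_insert _ _).trans h)).1
  rw [Set.insert_eq, dd_union K (Set.disjoint_singleton_left.2 fun h => (fb_mem.1 (hZ h)).2.2 rfl), h1,
    dd_of_subset (Set.singleton_subset_iff.2 t.c), Set.ncard_singleton] at r
  omega

/-- PROOF.  `δ ≠ δ'` in `orb J x` (`exists_two`), `j ∈ J` swaps them, `g : (α, β, δ) ↦ (α, β, γ)`, `x' = g δ'`, `g j g⁻¹` swaps `γ, x'`.  If `x' = i • x`, `i ∈ J`,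
then `g⁻¹ i : (α, β, γ, x) ↦ (α, β, δ, δ')`, against `clique`. -/
theorem CE.spex (c : CE K Ω) {α β γ x : Ω} (t : Tri K α β γ) (hx : x ∈ ({α, β, γ} : Set Ω)ᶜ)
    (h1 : dd K (orb (J3 G α β γ) x) = 1) :
    ∃ x' ∈ ({α, β, γ} : Set Ω)ᶜ, x' ∉ orb (J3 G α β γ) x ∧ Cj4 G α β γ x' α β x' γ := by
  have hZ := (inv_compl_fixing (G := G) ({α, β, γ} : Set Ω)).orb_subset hx
  obtain ⟨δ, hδ, δ', hδ', hn⟩ := exists_two ((tr_orb (J3 G α β γ) x).1.mono (le_fixing t.subset)) (c.orb_not t x hx)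
  obtain ⟨j, hj, e1, e2⟩ := (c.fb_res t hx).2 h1 δ hδ δ' hδ' δ' hδ' δ hδ hn hn.symm
  obtain ⟨j1, j2, -⟩ := mem_J3.1 hj
  obtain ⟨n1, n2, -⟩ := fb_mem.1 (hZ hδ)
  obtain ⟨n3, n4, -⟩ := fb_mem.1 (hZ hδ')
  obtain ⟨g, g1, g2, g3⟩ := c.t3.ex3 t.ab n1.symm n2.symm t.ab t.ac t.bc
  refine ⟨g • δ', fb_mem.2 ⟨fun h => n3 (smul_left_cancel g (h.trans g1.symm)),
    fun h => n4 (smul_left_cancel g (h.trans g2.symm)), fun h => hn (smul_left_cancel g (g3.trans h.symm))⟩, ?_,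
    g * j * g⁻¹, by rw [mul_smul, mul_smul, fb_inv g1, j1, g1], by rw [mul_smul, mul_smul, fb_inv g2, j2, g2],
    by rw [mul_smul, mul_smul, fb_inv g3, e1], by rw [mul_smul, mul_smul, inv_smul_smul, e2, g3]⟩
  rintro ⟨i, hi, e⟩
  obtain ⟨i1, i2, i3⟩ := mem_J3.1 hi
  exact c.clique t hx h1 hδ hδ' hn ⟨g⁻¹ * i, by rw [mul_smul, i1, fb_inv g1], by rw [mul_smul, i2, fb_inv g2],
    by rw [mul_smul, i3, fb_inv g3], by rw [mul_smul, e, inv_smul_smul]⟩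

/-- PROOF.  `SP y := Cj4 G α β γ y α β y γ` is constant on `J`-orbits.  Let `g₀ : (α, β, y) ↦ (α, β, γ)`, `y' = g₀ γ ∈ Z`.  If `y' = j y` then `j⁻¹ g₀` shows `SP y`; if
`s` shows `SP y'` then `g₀⁻¹ s g₀` shows `SP y`.  Suppose `¬ SP y`: `Y = orb J y`, `Y' = orb J y'` are disjoint and contain no `SP` point.  `W = Z \ (Y ∪ Y')`,
`dd Y + dd Y' + dd W = 3`, `dd W ≥ 0` (`IH.nonneg`).  One of `Y, Y'` has `dd = 1`, `spex` gives an `SP` point `x' ∈ W`; so `dd W = 1` (`IH.pos`), `W = orb J x'`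
(`IH.eq_orb`), and `spex` for `x'` gives an `SP` point in `Y ∪ Y'`. -/
theorem CE.sp (c : CE K Ω) {α β γ y : Ω} (t : Tri K α β γ) (hy : y ∈ ({α, β, γ} : Set Ω)ᶜ) : Cj4 G α β γ y α β y γ := by
  by_contra hs
  obtain ⟨n1, n2, n3⟩ := fb_mem.1 hy
  obtain ⟨g, g1, g2, g3⟩ := c.t3.ex3 t.ab n1.symm n2.symm t.ab t.ac t.bc
  have hy' : g • γ ∈ ({α, β, γ} : Set Ω)ᶜ := fb_mem.2 ⟨fun h => t.ac (smul_left_cancel g (g1.trans h.symm)),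
    fun h => t.bc (smul_left_cancel g (g2.trans h.symm)), fun h => n3 (smul_left_cancel g (g3.trans h.symm))⟩
  have hd : g • γ ∉ orb (J3 G α β γ) y := by
    rintro ⟨j, hj, e⟩
    obtain ⟨j1, j2, j3⟩ := mem_J3.1 hj
    exact hs ⟨j⁻¹ * g, by rw [mul_smul, g1, fb_inv j1], by rw [mul_smul, g2, fb_inv j2],
      by rw [mul_smul, fb_inv e], by rw [mul_smul, g3, fb_inv j3]⟩
  have hs' : ¬ Cj4 G α β γ (g • γ) α β (g • γ) γ := by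
    rintro ⟨s, s1, s2, s3, s4⟩
    exact hs ⟨g⁻¹ * s * g, by rw [mul_smul, mul_smul, g1, s1, fb_inv g1], by rw [mul_smul, mul_smul, g2, s2, fb_inv g2],
      by rw [mul_smul, mul_smul, s4, fb_inv g3], by rw [mul_smul, mul_smul, g3, s3, inv_smul_smul]⟩
  generalize g • γ = y' at hy' hd hs'
  have no : ∀ x ∈ orb (J3 G α β γ) y ∪ orb (J3 G α β γ) y', ¬ Cj4 G α β γ x α β x γ := by
    rintro x (hx | hx) s
    · exact hs (fb_orb ((orb_eq hx).ge (self_mem_orb _ _)) s)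
    · exact hs' (fb_orb ((orb_eq hx).ge (self_mem_orb _ _)) s)
  have iZ : Inv (J3 G α β γ) ({α, β, γ} : Set Ω)ᶜ := inv_compl_fixing _
  have hK : K ≤ J3 G α β γ := le_fixing t.subset
  have d3 := c.dd3 t
  rw [dd_diff K (Set.union_subset (iZ.orb_subset hy) (iZ.orb_subset hy')), dd_union K (disjoint_orb hd)] at d3
  have iW := iZ.diff ((tr_orb (J3 G α β γ) y).1.union (tr_orb (J3 G α β γ) y').1)
  have uW : ({α, β, γ} : Set Ω)ᶜ \ (orb (J3 G α β γ) y ∪ orb (J3 G α β γ) y') ≠ Set.univ := fun h =>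
    fb_ne α β γ (Set.eq_univ_of_univ_subset (h.ge.trans Set.diff_subset))
  have fW : ∀ x ∈ ({α, β, γ} : Set Ω)ᶜ \ (orb (J3 G α β γ) y ∪ orb (J3 G α β γ) y'),
      ¬ orb (J3 G α β γ) x ⊆ Fx K Ω := fun x hx => c.orb_not t x hx.1
  have p0 := c.ih.nonneg hK iW uW fW
  have p1 := (c.fb_res t hy).1
  have p2 := (c.fb_res t hy').1
  obtain ⟨x, hx, s⟩ : ∃ x ∈ ({α, β, γ} : Set Ω)ᶜ, Cj4 G α β γ x α β x γ := by
    by_cases q : dd K (orb (J3 G α β γ) y) = 1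
    · obtain ⟨x, hx, -, s⟩ := c.spex t hy q
      exact ⟨x, hx, s⟩
    · obtain ⟨x, hx, -, s⟩ := c.spex t hy' (by omega)
      exact ⟨x, hx, s⟩
  have hW : x ∈ ({α, β, γ} : Set Ω)ᶜ \ (orb (J3 G α β γ) y ∪ orb (J3 G α β γ) y') := ⟨hx, fun h => no x h s⟩
  have p3 := c.ih.pos hK iW uW fW ⟨x, hW⟩
  have e := c.ih.eq_orb hK iW uW fW (by omega) hW
  obtain ⟨x', hx', m, s'⟩ := c.spex t hx (by rw [e]; omega)
  exact m (e.ge ⟨hx', fun h => no x' h s'⟩)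

/-- Transport `sp` by `Kt.ex3` (`exists_tri`). -/
theorem CE.gen (c : CE K Ω) {a b d e : Ω} (h1 : a ≠ b) (h2 : a ≠ d) (h3 : a ≠ e) (h4 : b ≠ d) (h5 : b ≠ e) (h6 : d ≠ e) :
    Cj4 G a b d e a b e d := by
  obtain ⟨α, β, γ, t⟩ := c.exists_tri
  obtain ⟨g, g1, g2, g3⟩ := c.t3.ex3 h1 h2 h4 t.ab t.ac t.bc
  obtain ⟨s, s1, s2, s3, s4⟩ := c.sp t (y := g • e) (fb_mem.2 ⟨fun h => h3 (smul_left_cancel g (g1.trans h.symm)),
    fun h => h5 (smul_left_cancel g (g2.trans h.symm)), fun h => h6 (smul_left_cancel g (g3.trans h.symm))⟩)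
  exact ⟨g⁻¹ * s * g, by rw [mul_smul, mul_smul, g1, s1, fb_inv g1], by rw [mul_smul, mul_smul, g2, s2, fb_inv g2],
    by rw [mul_smul, mul_smul, g3, s3, inv_smul_smul], by rw [mul_smul, mul_smul, s4, fb_inv g3]⟩

end Cfsg.Agent.PrF
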