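import Cfsg.Agent.PrF.FourB

/-!
4-transitivity.  Read `PrF/Defs` and the signatures of `PrF/Bas`, `PrF/Dd`, `PrF/FourA`, `PrF/FourB`.  `F = Fx K Ω`, `J = J3 G α β γ`, `Z = {α, β, γ}ᶜ`,
`y ∈ Z`, `Y = orb J y`, `k = #Y`, `Q a b d e := Cj4 G α β γ y a b d e` (it forces `a, b, d, e` distinct, and is `G`-invariant).
-/

namespace Cfsg.Agent.PrF
open MulAction Subgroup
open scoped Pointwise

universe u v

variable {G : Type u} [Group G] [Finite G] {Ω : Type v} [MulAction G Ω] [Finite Ω] {K R : Subgroup G}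

variable {α β γ y : Ω}

omit [Finite G] [Finite Ω] in
theorem q_smul {a b d e : Ω} (h : Cj4 G α β γ y a b d e) (g : G) : Cj4 G α β γ y (g • a) (g • b) (g • d) (g • e) := by
  obtain ⟨k, rfl, rfl, rfl, rfl⟩ := h
  exact ⟨g * k, mul_smul .., mul_smul .., mul_smul .., mul_smul ..⟩

omit [Finite G] [Finite Ω] in
theorem q_ne (t : Tri K α β γ) (hy : y ∈ ({α, β, γ} : Set Ω)ᶜ) {a b d e : Ω} (h : Cj4 G α β γ y a b d e) :
    a ≠ b ∧ a ≠ d ∧ a ≠ e ∧ b ≠ d ∧ b ≠ e ∧ d ≠ e := by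
  obtain ⟨k, rfl, rfl, rfl, rfl⟩ := h
  simp only [Set.mem_compl_iff, Set.mem_insert_iff, Set.mem_singleton_iff, not_or] at hy
  simp only [ne_eq, smul_left_cancel_iff]
  exact ⟨t.ab, t.ac, Ne.symm hy.1, t.bc, Ne.symm hy.2.1, Ne.symm hy.2.2⟩

/-- `Q` is symmetric: compose with `gen` (for the four points in a suitable order). -/
theorem CE.q_symm (c : CE K Ω) (t : Tri K α β γ) (hy : y ∈ ({α, β, γ} : Set Ω)ᶜ) {a b d e : Ω} (h : Cj4 G α β γ y a b d e) :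
    Cj4 G α β γ y b a d e ∧ Cj4 G α β γ y a d b e ∧ Cj4 G α β γ y a b e d := by
  obtain ⟨h1, h2, h3, h4, h5, h6⟩ := q_ne t hy h
  refine ⟨?_, ?_, ?_⟩
  · obtain ⟨g, e1, e2, e3, e4⟩ := c.gen h6 h2.symm h4.symm h3.symm h5.symm h1
    have := q_smul h g
    rwa [e1, e2, e3, e4] at this
  · obtain ⟨g, e1, e2, e3, e4⟩ := c.gen h3 h1 h2 h5.symm h6.symm h4
    have := q_smul h g
    rwa [e1, e2, e3, e4] at this
  · obtain ⟨g, e1, e2, e3, e4⟩ := c.gen h1 h2 h3 h4 h5 h6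
    have := q_smul h g
    rwa [e1, e2, e3, e4] at this

/-- `{x | Q a b d x} = g • Y` for `g : (α, β, γ) ↦ (a, b, d)`. -/
theorem q_set {a b d : Ω} {g : G} (h : g • α = a ∧ g • β = b ∧ g • γ = d) :
    {x | Cj4 G α β γ y a b d x} = g • orb (J3 G α β γ) y := by
  obtain ⟨rfl, rfl, rfl⟩ := h
  ext x
  rw [Set.mem_smul_set_iff_inv_smul_mem]
  constructor
  · rintro ⟨k, e1, e2, e3, rfl⟩
    exact ⟨g⁻¹ * k, mem_J3.2 ⟨by rw [mul_smul, e1, inv_smul_smul], by rw [mul_smul, e2, inv_smul_smul],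
      by rw [mul_smul, e3, inv_smul_smul]⟩, mul_smul ..⟩
  · rintro ⟨j, hj, e⟩
    obtain ⟨e1, e2, e3⟩ := mem_J3.1 hj
    exact ⟨g * j, by rw [mul_smul, e1], by rw [mul_smul, e2], by rw [mul_smul, e3],
      by rw [mul_smul, e, smul_inv_smul]⟩

/-- No triangles: translate `clique` by `g⁻¹` (`q_set`). -/
theorem CE.q_tri (c : CE K Ω) (t : Tri K α β γ) (hy : y ∈ ({α, β, γ} : Set Ω)ᶜ) (h1 : dd K (orb (J3 G α β γ) y) = 1) {a b d e f : Ω}
    (h : Cj4 G α β γ y a b d e) (h' : Cj4 G α β γ y a b d f) (hn : e ≠ f) : ¬ Cj4 G α β γ y a b e f := by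
  intro h2
  have ⟨g, e1, e2, e3, _⟩ := h
  have hs := q_set (y := y) ⟨e1, e2, e3⟩
  have h3 := q_smul h2 g⁻¹
  rw [← e1, ← e2, inv_smul_smul, inv_smul_smul] at h3
  exact c.clique t hy h1 (Set.mem_smul_set_iff_inv_smul_mem.1 (hs.le h))
    (Set.mem_smul_set_iff_inv_smul_mem.1 (hs.le h')) (fun e => hn (smul_left_cancel _ e)) h3

/-- PROOF.  `M₁ = {x | Q a b d x ∧ Q a b e x}`, `M₂ = {x | Q a d b x ∧ Q a d e x}`, `M₃ = {x | Q d b a x ∧ Q d b e x}` lie in `{x | Q a b d x}` (size `k`), `M₂ = g M₁` for `g`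
fixing `a, e` and swapping `b, d` (`gen`), `M₃ = g' M₁` for `g'` fixing `b, e` and swapping `a, d`.  They are pairwise disjoint: `x ∈ M₁ ∩ M₂` gives `Q a x b d`,
`Q a x b e`, `Q a x d e`, against `q_tri`; `M₁ ∩ M₃`: the pair `b, x`; `M₂ ∩ M₃`: the pair `d, x`. -/
theorem CE.mu_le (c : CE K Ω) (t : Tri K α β γ) (hy : y ∈ ({α, β, γ} : Set Ω)ᶜ) (h1 : dd K (orb (J3 G α β γ) y) = 1) {a b d e : Ω}
    (h1' : a ≠ b) (h2 : a ≠ d) (h3 : a ≠ e) (h4 : b ≠ d) (h5 : b ≠ e) (h6 : d ≠ e) :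
    3 * {x | Cj4 G α β γ y a b d x ∧ Cj4 G α β γ y a b e x}.ncard ≤ (orb (J3 G α β γ) y).ncard := by
  have s1 : ∀ {a b d e : Ω}, Cj4 G α β γ y a b d e → Cj4 G α β γ y b a d e := fun h => (c.q_symm t hy h).1
  have s2 : ∀ {a b d e : Ω}, Cj4 G α β γ y a b d e → Cj4 G α β γ y a d b e := fun h => (c.q_symm t hy h).2.1
  have ro : ∀ {a b d e : Ω}, Cj4 G α β γ y a b d e → Cj4 G α β γ y a e b d :=
    fun h => s2 (c.q_symm t hy h).2.2
  set M₁ := {x | Cj4 G α β γ y a b d x ∧ Cj4 G α β γ y a b e x}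
  set M₂ := {x | Cj4 G α β γ y a d b x ∧ Cj4 G α β γ y a d e x}
  set M₃ := {x | Cj4 G α β γ y d b a x ∧ Cj4 G α β γ y d b e x}
  have l2 : M₁.ncard ≤ M₂.ncard := by
    obtain ⟨g, e1, e2, e3, e4⟩ := c.gen h3 h1' h2 h5.symm h6.symm h4
    refine Set.ncard_le_ncard_of_injOn (g • ·) (fun x hx => ?_) fun _ _ _ _ e => smul_left_cancel _ e
    have k1 := q_smul hx.1 g
    have k2 := q_smul hx.2 g
    rw [e1, e3, e4] at k1
    rw [e1, e2, e3] at k2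
    exact ⟨k1, k2⟩
  have l3 : M₁.ncard ≤ M₃.ncard := by
    obtain ⟨g, e1, e2, e3, e4⟩ := c.gen h5 h1'.symm h4 h3.symm h6.symm h2
    refine Set.ncard_le_ncard_of_injOn (g • ·) (fun x hx => ?_) fun _ _ _ _ e => smul_left_cancel _ e
    have k1 := q_smul hx.1 g
    have k2 := q_smul hx.2 g
    rw [e1, e3, e4] at k1
    rw [e1, e2, e3] at k2
    exact ⟨k1, k2⟩
  have d12 : Disjoint M₁ M₂ := Set.disjoint_left.2 fun x hx hx' =>
    c.q_tri t hy h1 (ro hx.1) (ro hx.2) h6 (ro hx'.2)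
  have d3 : Disjoint (M₁ ∪ M₂) M₃ := Set.disjoint_left.2 fun x hx hx' => by
    rcases hx with hx | hx
    · exact c.q_tri t hy h1 (ro (s1 hx.1)) (ro (s1 hx.2)) h6 (ro (s1 hx'.2))
    · exact c.q_tri t hy h1 (ro (s1 hx.1)) (ro (s1 hx.2)) h5 (ro hx'.2)
  obtain ⟨g, hg⟩ := c.t3.ex3 t.ab t.ac t.bc h1' h2 h4
  have sub : M₁ ∪ M₂ ∪ M₃ ⊆ g • orb (J3 G α β γ) y := by
    rw [← q_set hg]
    rintro x ((hx | hx) | hx)
    · exact hx.1
    · exact s2 hx.1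
    · exact s1 (s2 (s1 hx.1))
  have := Set.ncard_le_ncard sub
  rw [Set.ncard_union_eq d3, Set.ncard_union_eq d12, Set.ncard_smul_set] at this
  omega

/-- PROOF.  Double count the pairs `(γ', δ) ∈ (F \ {α, β}) × Fᶜ` with `Q α β γ' δ` (`Finset.card_mul_le_card_mul` or `Finset.sum_card_bipartiteAbove_eq_sum_card_bipartiteBelow`).
For `γ'`: `Kt.ex3` and `Prn.witt` (`R = ⊤`) give `n ∈ N(K)`, `(α, β, γ) ↦ (α, β, γ')`, and the set of `δ` is `n • (Y \ F)` (`q_set`, `norm_mem_Fx`).  For `δ`: `κ ∈ K` with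
`κ δ ≠ δ`; `Q α β γ' δ` gives `Q α β γ' (κ δ)`, so `γ'` lies in `{x | Q α β δ x ∧ Q α β (κ δ) x}`; `mu_le`. -/
theorem CE.edges (c : CE K Ω) (t : Tri K α β γ) (hy : y ∈ ({α, β, γ} : Set Ω)ᶜ) (h1 : dd K (orb (J3 G α β γ) y) = 1) :
    3 * (((Fx K Ω).ncard - 2) * (orb (J3 G α β γ) y \ Fx K Ω).ncard) ≤ (Fx K Ω).ncard * (orb (J3 G α β γ) y).ncard := by
  classical
  have key := Finset.card_mul_le_card_mul (s := (Set.toFinite (Fx K Ω \ {α, β})).toFinset)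
    (t := (Set.toFinite (Fx K Ω)ᶜ).toFinset) (fun γ' δ => Cj4 G α β γ y α β γ' δ)
    (m := (orb (J3 G α β γ) y \ Fx K Ω).ncard) (n := (orb (J3 G α β γ) y).ncard / 3) (fun γ' h => ?_) fun δ h => ?_
  · rw [← Set.ncard_eq_toFinset_card, ← Set.ncard_eq_toFinset_card, c.ncard_compl,
      Set.ncard_diff (Set.insert_subset t.a (Set.singleton_subset_iff.2 t.b)), Set.ncard_pair t.ab] at key
    calc _ ≤ 3 * ((Fx K Ω).ncard * ((orb (J3 G α β γ) y).ncard / 3)) := Nat.mul_le_mul_left _ key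
      _ = (Fx K Ω).ncard * (3 * ((orb (J3 G α β γ) y).ncard / 3)) := by ring
      _ ≤ _ := Nat.mul_le_mul_left _ (Nat.mul_div_le _ _)
  · rw [Set.Finite.mem_toFinset] at h
    obtain ⟨hF, hn⟩ := h
    simp only [Set.mem_insert_iff, Set.mem_singleton_iff, not_or] at hn
    obtain ⟨g, e1, e2, e3⟩ := c.t3.ex3 t.ab t.ac t.bc t.ab (Ne.symm hn.1) (Ne.symm hn.2)
    obtain ⟨n, -, hn, e⟩ := c.prn.witt (Ω := Ω) le_top (mem_top g)
    have hs := q_set (y := y) ⟨(e α t.a (e1.symm ▸ t.a)).trans e1, (e β t.b (e2.symm ▸ t.b)).trans e2,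
      (e γ t.c (e3.symm ▸ hF)).trans e3⟩
    rw [← Set.ncard_coe_finset]
    refine Set.ncard_le_ncard_of_injOn (n • ·) (fun x hx => ?_) fun _ _ _ _ e => smul_left_cancel _ e
    rw [Finset.mem_coe, Finset.mem_bipartiteAbove, Set.Finite.mem_toFinset]
    exact ⟨fun h => hx.2 ((norm_mem_Fx hn).1 h), hs.ge (Set.smul_mem_smul_set hx.1)⟩
  · rw [Set.Finite.mem_toFinset] at h
    obtain ⟨κ, hκ, hn⟩ : ∃ κ ∈ K, κ • δ ≠ δ := by
      by_contra h'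
      exact h fun κ hκ => not_not.1 fun e => h' ⟨κ, hκ, e⟩
    have h' : κ • δ ∉ Fx K Ω := fun e => h ((norm_mem_Fx (le_normalizer hκ)).1 e)
    have := c.mu_le t hy h1 (a := α) (b := β) (d := δ) (e := κ • δ) t.ab (fun e => h (e ▸ t.a))
      (fun e => h' (e ▸ t.a)) (fun e => h (e ▸ t.b)) (fun e => h' (e ▸ t.b)) hn.symm
    refine (Nat.le_div_iff_mul_le (by norm_num)).2 (le_trans ?_ this)
    rw [mul_comm, ← Set.ncard_coe_finset]
    refine Nat.mul_le_mul_left _ (Set.ncard_le_ncard fun x hx => ?_)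
    rw [Finset.mem_coe, Finset.mem_bipartiteBelow, Set.Finite.mem_toFinset] at hx
    have k := q_smul hx.2 κ
    rw [t.a κ hκ, t.b κ hκ, hx.1.1 κ hκ] at k
    exact ⟨(c.q_symm t hy hx.2).2.2, (c.q_symm t hy k).2.2⟩

/-- PROOF.  If `J` is transitive on `Z`: `Kt.succ`.  Otherwise `Y₀ = orb J y₀ ≠ Z`, `dd Y₀ + dd (Z \ Y₀) = 3`, both `≥ 1`, so one of them is `1` and is an orbit `Y ≠ Z`
(`IH.eq_orb`).  `a = #(Y \ F)`, `k = 2 a - 1` (`dd_eq`).  `Y \ F` and `(Z \ Y) \ F` are nonempty (`orb_not`), `K`-invariant, disjoint subsets of `Fᶜ`, of size `≥ 4`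
(`Prn.lt_ncard`, `four_le`), so `h ≥ 8`.  `edges`: `3 (h - 2) a ≤ h (2 a - 1)`, i.e. `h a + h ≤ 6 a`, false. -/
theorem CE.t4 (c : CE K Ω) : Kt G Ω 4 := by
  obtain ⟨α, β, γ, t⟩ := c.exists_tri
  have hK : K ≤ J3 G α β γ := le_fixing t.subset
  have h4 := c.four_le
  have big : ∀ x ∈ ({α, β, γ} : Set Ω)ᶜ, 3 < (orb (J3 G α β γ) x \ Fx K Ω).ncard := fun x hx =>
    c.prn.lt_ncard c.t3 (by omega) (((tr_orb _ x).1.mono hK).diff inv_Fx)
      (Set.diff_nonempty.2 (c.orb_not t x hx)) Set.disjoint_sdiff_left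
  have key : ∀ x ∈ ({α, β, γ} : Set Ω)ᶜ, ∀ z ∈ ({α, β, γ} : Set Ω)ᶜ, z ∉ orb (J3 G α β γ) x →
      dd K (orb (J3 G α β γ) x) = 1 → False := fun x hx z hz hn h1 => by
    have e := c.edges t hx h1
    have b1 := big x hx
    have b2 := big z hz
    have h5 := Set.ncard_le_ncard (show orb (J3 G α β γ) x \ Fx K Ω ∪ orb (J3 G α β γ) z \ Fx K Ω ⊆ (Fx K Ω)ᶜ from
      Set.union_subset (fun _ h => h.2) fun _ h => h.2)
    rw [Set.ncard_union_eq ((disjoint_orb hn).mono Set.diff_subset Set.diff_subset), c.ncard_compl] at h5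
    have h6 := Set.ncard_inter_add_ncard_diff_eq_ncard (orb (J3 G α β γ) x) (Fx K Ω)
    rw [dd_eq] at h1
    generalize (orb (J3 G α β γ) x \ Fx K Ω).ncard = a at *
    generalize (orb (J3 G α β γ) x).ncard = k at *
    obtain ⟨m, hm⟩ : ∃ m, (Fx K Ω).ncard = m + 8 := ⟨(Fx K Ω).ncard - 8, by omega⟩
    obtain rfl : k = 2 * a - 1 := by omega
    rw [hm, show m + 8 - 2 = m + 6 by omega] at e
    have h7 : (m + 8) * (2 * a - 1) ≤ (m + 8) * (2 * a) := Nat.mul_le_mul_left _ (by omega)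
    nlinarith
  have hZ : Inv (J3 G α β γ) ({α, β, γ} : Set Ω)ᶜ := inv_compl_fixing _
  have hu : ∀ {Z : Set Ω}, Z ⊆ ({α, β, γ} : Set Ω)ᶜ → Z ≠ Set.univ := fun h e =>
    h (e.ge (Set.mem_univ α)) (Set.mem_insert _ _)
  refine c.t3.succ (S := {α, β, γ}) (Set.ncard_eq_three.2 ⟨α, β, γ, t.ab, t.ac, t.bc, rfl⟩) fun x hx z hz => ?_
  by_contra hn
  have h1 := dd_diff K (hZ.orb_subset hx)
  have h2 := (c.ih.orb hK hZ (hu le_rfl) hx (c.orb_not t x hx)).1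
  have hW := hZ.diff (tr_orb _ x).1
  have hF := fun w (hw : w ∈ ({α, β, γ} : Set Ω)ᶜ \ orb (J3 G α β γ) x) => c.orb_not t w hw.1
  have h3 := c.ih.pos hK hW (hu Set.diff_subset) hF ⟨z, hz, hn⟩
  rw [c.dd3 t] at h1
  by_cases e : dd K (orb (J3 G α β γ) x) = 1
  · exact key x hx z hz hn e
  · have e1 := c.ih.eq_orb hK hW (hu Set.diff_subset) hF (by omega) ⟨hz, hn⟩
    exact key z hz x hx (fun h => (e1.le h).2 (self_mem_orb _ x)) (by rw [e1]; omega)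

end Cfsg.Agent.PrF
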