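import Cfsg.Agent.PrF.Dd

/-!
The imprimitive case; suborbits in the primitive case.  Read `PrF/Defs` and the signatures of `PrF/Bas`, `PrF/Dd`.  `F = Fx K Ω`.
-/

namespace Cfsg.Agent.PrF
open MulAction Subgroup
open scoped Pointwise

universe u v

variable {G : Type u} [Group G] [Finite G] {Ω : Type v} [MulAction G Ω] [Finite Ω] {K R : Subgroup G}

omit [Finite G] in
theorem imp_sum {Λ : Type*} (π : Ω → Λ) (T : Finset Λ) :
    dd K (π ⁻¹' (T : Set Λ)) = ∑ C ∈ T, dd K (π ⁻¹' {C}) := by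
  classical
  induction T using Finset.induction_on with
  | empty => simp [dd]
  | insert a T ha ih =>
    rw [Finset.sum_insert ha, ← ih, ← dd_union K (Disjoint.preimage π (by simpa using ha)),
      ← Set.preimage_union, Finset.coe_insert, Set.insert_eq]

theorem imp_core [IsPretransitive G Ω] (hlt : ∀ m < Nat.card Ω, Th.{u, v} m) (h : Prn K)
    (hF : Fx K Ω ≠ Set.univ) {Λ : Type v} [MulAction G Λ] [Finite Λ] [Nontrivial Λ] (π : Ω → Λ)
    (hπ : ∀ (g : G) x, π (g • x) = g • π x) (hs : Function.Surjective π) {a b : Ω} (hab : a ≠ b)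
    (e : π a = π b) : 2 ≤ dd K (Set.univ : Set Ω) := by
  classical
  have := Fintype.ofFinite Λ
  have := Fintype.ofFinite Ω
  have hsum : dd K (Set.univ : Set Ω) = ∑ C, dd K (π ⁻¹' {C}) := by
    rw [← imp_sum π Finset.univ]; simp
  by_cases hΛ : Fx K Λ = Set.univ
  · have hK : ∀ (C : Λ) k, k ∈ K → k • C = C := fun C k hk =>
      (hΛ ▸ Set.mem_univ C : C ∈ Fx K Λ) k hk
    have h1 : ∀ C : Λ, 1 ≤ dd K (π ⁻¹' {C}) := fun C => by
      refine (ih_of_th hlt h (stabilizer G C) _ (hK C) ⟨fun g hg x hx => ?_, fun x hx y hy => ?_⟩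
        (fun c => ?_) fun c => hF (Set.eq_univ_of_forall fun x => ?_)).1
      · exact (hπ g x).trans ((congrArg _ hx).trans hg)
      · obtain ⟨g, rfl⟩ := exists_smul_eq G x y
        exact ⟨g, (congrArg _ hx).symm.trans ((hπ g x).symm.trans hy), rfl⟩
      · obtain ⟨D, hD⟩ := exists_ne C
        obtain ⟨x, rfl⟩ := hs D
        exact hD (c ▸ Set.mem_univ x : x ∈ π ⁻¹' {C})
      · obtain ⟨y, rfl⟩ := hs C
        obtain ⟨g, rfl⟩ := exists_smul_eq G y x
        obtain ⟨n, hn, hR⟩ := h g⁻¹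
        have h2 : (g⁻¹ * n) • π y = π y := hR (stabilizer G (π y)) (hK _) fun k hk => by
          rw [mem_stabilizer_iff, mul_smul, mul_smul, hK _ k hk, smul_inv_smul]
        have h3 : n⁻¹ • g • y ∈ Fx K Ω := c (by
          rw [Set.mem_preimage, hπ, hπ, ← mul_smul, Set.mem_singleton_iff, ← eq_inv_smul_iff]
          simpa using h2.symm)
        exact (norm_mem_Fx (inv_mem hn)).1 h3
    rw [hsum]
    refine le_trans ?_ (Finset.sum_le_sum fun C _ => h1 C)
    have : 1 < Fintype.card Λ := Fintype.one_lt_card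
    simp only [Finset.sum_const, Finset.card_univ, nsmul_eq_mul, mul_one]
    exact_mod_cast this
  · have : IsPretransitive G Λ := ⟨fun C D => by
      obtain ⟨x, rfl⟩ := hs C
      obtain ⟨y, rfl⟩ := hs D
      obtain ⟨g, rfl⟩ := exists_smul_eq G x y
      exact ⟨g, (hπ g x).symm⟩⟩
    have h1 := (hlt (Nat.card Λ) (by
      rw [Nat.card_eq_fintype_card, Nat.card_eq_fintype_card]
      exact Fintype.card_lt_of_surjective_not_injective π hs fun c => hab (c e))
      G Λ K rfl h this hΛ).1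
    have h2 : dd K (Set.univ : Set Λ) = ∑ C, dd K ({C} : Set Λ) := by
      have := imp_sum (K := K) (id : Λ → Λ) Finset.univ
      simpa using this
    have h3 : ∀ C, (π ⁻¹' {C}).ncard = (π ⁻¹' {π a}).ncard := fun C => by
      obtain ⟨g, rfl⟩ := exists_smul_eq G (π a) C
      rw [← Set.ncard_smul_set g (π ⁻¹' {π a})]
      congr 1
      ext x
      rw [Set.mem_smul_set_iff_inv_smul_mem, Set.mem_preimage, Set.mem_preimage, hπ,
        Set.mem_singleton_iff, Set.mem_singleton_iff, inv_smul_eq_iff]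
    have h4 : 1 < (π ⁻¹' {π a}).ncard := (Set.one_lt_ncard (Set.toFinite _)).2 ⟨a, rfl, b, e.symm, hab⟩
    have h5 : ∀ C, ((π ⁻¹' {π a}).ncard : ℤ) * dd K ({C} : Set Λ) ≤ dd K (π ⁻¹' {C}) := fun C => by
      rw [← h3 C]
      by_cases hC : C ∈ Fx K Λ
      · rw [dd_of_subset (Set.singleton_subset_iff.2 hC), dd, Set.ncard_singleton]
        have := Set.ncard_le_ncard (Set.inter_subset_left (s := π ⁻¹' {C}) (t := Fx K Ω))
        omega
      · have k : π ⁻¹' {C} ∩ Fx K Ω = ∅ := Set.eq_empty_of_forall_notMem fun x hx =>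
          hC fun k hk => by rw [← hx.1, ← hπ, hx.2 k hk]
        rw [dd, dd, k, Set.singleton_inter_eq_empty.2 hC]
        simp
    rw [hsum]
    refine le_trans ?_ (Finset.sum_le_sum fun C _ => h5 C)
    rw [← Finset.mul_sum, ← h2]
    have h6 : (1 : ℤ) < (π ⁻¹' {π a}).ncard := by exact_mod_cast h4
    nlinarith

/-- PROOF.  Let `B` be a block, not a subsingleton, `≠ univ` (`IsPreprimitive` unfolds to `isTrivialBlock_of_isBlock`), `s = #B ≥ 2`,
`Ω' = ↥(orbit G B)` (the translates of `B`, `b = #Ω'`, `s b = n` by `IsBlock.ncard_block_mul_ncard_orbit_eq`, so `2 ≤ b < n`); the translates partition `Ω`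
(`IsBlock.isBlockSystem`).
(a) `K` moves a translate.  `hlt` for `Ω'` gives `2 f' + 1 ≤ b` (`dd_univ`).  A point of `F` lies in a translate fixed by `K`, so `f ≤ s f'`,
`2 f + s ≤ s b = n`.
(b) `K` fixes every translate.  If some translate `B₁ ⊆ F`: for `g`, `Prn` with `R` = the subgroup fixing all translates (normal, contains `K`) gives
`n ∈ N(K)` with `g n B₁' = B₁'` for all translates; so `g⁻¹ B₁ = n B₁ ⊆ F` (`norm_smul_Fx`) for every `g`, `F = univ`.  So no translate lies in `F`.  For a translate `B'`: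
`R' = stabilizer G B' ≥ K` and `Tr R' B'`, so `1 ≤ dd K B'`.  With two translates `B₁ ≠ B₂` and `R₀` = the subgroup generated by nothing more than needed:
simply sum `dd` over the partition (`dd_union`, induction on a finite set of translates): `dd K univ ≥ b ≥ 2`. -/
theorem imp [IsPretransitive G Ω] (hlt : ∀ m < Nat.card Ω, Th.{u, v} m) (h : Prn K) (hF : Fx K Ω ≠ Set.univ)
    (hp : ¬ IsPreprimitive G Ω) : 2 ≤ dd K (Set.univ : Set Ω) := by
  obtain ⟨B, hB, h1⟩ : ∃ B : Set Ω, IsBlock G B ∧ ¬ IsTrivialBlock B := by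
    by_contra c
    push Not at c
    exact hp ⟨fun {B} => c B⟩
  rw [IsTrivialBlock, not_or, Set.not_subsingleton_iff] at h1
  obtain ⟨⟨a, ha, b, hb, hab⟩, h2⟩ := h1
  have k : ∀ x : Ω, ∃ C : orbit G B, x ∈ (C : Set Ω) := fun x => by
    obtain ⟨g, rfl⟩ := exists_smul_eq G a x
    exact ⟨⟨g • B, mem_orbit B g⟩, Set.smul_mem_smul_set ha⟩
  choose π hπ using k
  have u : ∀ x (C : orbit G B), x ∈ (C : Set Ω) → π x = C := fun x C hC => by
    have := hπ x
    generalize π x = D at this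
    obtain ⟨_, g, rfl⟩ := C
    obtain ⟨_, g', rfl⟩ := D
    exact Subtype.ext (hB.smul_eq_smul_of_nonempty ⟨x, this, hC⟩)
  obtain ⟨c, hc⟩ := (Set.ne_univ_iff_exists_notMem B).1 h2
  have : Nontrivial (orbit G B) := ⟨π c, ⟨B, mem_orbit_self B⟩, fun e => hc (by simpa [e] using hπ c)⟩
  refine imp_core hlt h hF π (fun g x => u _ _ (Set.smul_mem_smul_set (hπ x))) ?_ hab
    ((u a ⟨B, mem_orbit_self B⟩ ha).trans (u b _ hb).symm)
  rintro ⟨_, g, rfl⟩
  exact ⟨g • a, u _ _ (Set.smul_mem_smul_set ha)⟩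

/-- PROOF.  Otherwise `y ∈ cl K {α}` (`Prn.mem_cl`; `fixingSubgroup G {α}`).  `cl K {α} = ⋂ (k) (_ : α ∈ k • F), k • F` is a block
(`IsBlock.of_subset`) containing `α ≠ y`, so it is `univ`, and it lies in `F` (`cl_subset_Fx`). -/
theorem sub_not [IsPreprimitive G Ω] (h : Prn K) (hF : Fx K Ω ≠ Set.univ) {α y : Ω} (hα : α ∈ Fx K Ω) (hy : y ≠ α) :
    ¬ orb (fixingSubgroup G ({α} : Set Ω)) y ⊆ Fx K Ω := by
  intro c
  have h1 := (h.mem_cl (Set.singleton_subset_iff.2 hα)).2 c
  have e : cl K {α} = ⋂ (k : G) (_ : α ∈ k • Fx K Ω), k • Fx K Ω := by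
    ext z
    simp [cl]
  have h2 := IsPreprimitive.isTrivialBlock_of_isBlock
    (IsBlock.of_subset (G := G) α (Set.toFinite (Fx K Ω)))
  rw [← e] at h2
  rcases h2 with h2 | h2
  · exact hy (h2 h1 (subset_cl K _ rfl))
  · exact hF (Set.eq_univ_of_univ_subset (h2 ▸ cl_subset_Fx (Set.singleton_subset_iff.2 hα)))

end Cfsg.Agent.PrF
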