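import Cfsg.Agent.PrF.Prim
import Cfsg.Agent.PrF.FourC
import Cfsg.Agent.PrF.FiveA
import Cfsg.Agent.PrF.FiveC
import Cfsg.Agent.PrF.Boch

/-!
The theorem: there is no counterexample.
-/

namespace Cfsg.Agent.PrF
open MulAction Subgroup
open scoped Pointwise

universe u v
set_option linter.unusedSectionVars false

section
variable {G : Type u} [Group G] {Ω : Type v} [MulAction G Ω]

/-- The permutation of `F` induced by an element of `N(K)`. -/
def nHom (K : Subgroup G) (Ω : Type v) [MulAction G Ω] : normalizer (K : Set G) →* Equiv.Perm (Fx K Ω) where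
  toFun n := (MulAction.toPerm (n : G)).subtypePerm fun _ => norm_mem_Fx n.2
  map_one' := by
    ext x
    simp
  map_mul' a b := by
    ext x
    exact mul_smul (a : G) (b : G) (x : Ω)

theorem nHom_apply (K : Subgroup G) (n : normalizer (K : Set G)) (x : Fx K Ω) : ((nHom K Ω n x : Fx K Ω) : Ω) = (n : G) • (x : Ω) := rfl

end

variable {G : Type u} [Group G] [Finite G] {Ω : Type v} [MulAction G Ω] [Finite Ω] {K : Subgroup G}

theorem CE.range_t4 (c : CE K Ω) (h4 : Kt G Ω 4) : IsMultiplyPretransitive (nHom K Ω).range (Fx K Ω) 4 := by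
  apply kt_of
  intro a b ha hb
  obtain ⟨g, hg⟩ := h4.ex (a := fun i => (a i : Ω)) (b := fun i => (b i : Ω)) (Subtype.val_injective.comp ha)
    (Subtype.val_injective.comp hb)
  obtain ⟨n, -, hn, h⟩ := c.prn.witt (Ω := Ω) (R := ⊤) le_top (mem_top g)
  refine ⟨⟨nHom K Ω ⟨n, hn⟩, ⟨_, rfl⟩⟩, fun i => Subtype.ext ?_⟩
  change n • (a i : Ω) = b i
  rw [h _ (a i).2 (by rw [hg]; exact (b i).2), hg]

theorem cyc_of_alt [Fintype (Fx K Ω)] [DecidableEq (Fx K Ω)] (h : alternatingGroup (Fx K Ω) ≤ (nHom K Ω).range) : Cyc K Ω := by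
  intro a ha b hb d hd ab ad bd
  have ab' : (⟨a, ha⟩ : Fx K Ω) ≠ ⟨b, hb⟩ := fun e => ab (congrArg Subtype.val e)
  have ad' : (⟨a, ha⟩ : Fx K Ω) ≠ ⟨d, hd⟩ := fun e => ad (congrArg Subtype.val e)
  have bd' : (⟨b, hb⟩ : Fx K Ω) ≠ ⟨d, hd⟩ := fun e => bd (congrArg Subtype.val e)
  have hm : Equiv.swap (⟨a, ha⟩ : Fx K Ω) ⟨d, hd⟩ * Equiv.swap (⟨a, ha⟩ : Fx K Ω) ⟨b, hb⟩ ∈ alternatingGroup (Fx K Ω) := by
    rw [Equiv.Perm.mem_alternatingGroup, Equiv.Perm.sign_mul, Equiv.Perm.sign_swap ad', Equiv.Perm.sign_swap ab']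
    simp
  obtain ⟨n, hn⟩ := h hm
  have hx : ∀ x : Fx K Ω, (n : G) • (x : Ω) =
      ((Equiv.swap (⟨a, ha⟩ : Fx K Ω) ⟨d, hd⟩ (Equiv.swap (⟨a, ha⟩ : Fx K Ω) ⟨b, hb⟩ x) : Fx K Ω) : Ω) := by
    intro x
    rw [← nHom_apply, hn]
    rfl
  refine ⟨n, n.2, ?_, ?_, ?_, ?_⟩
  · rw [hx ⟨a, ha⟩, Equiv.swap_apply_left, Equiv.swap_apply_of_ne_of_ne ab'.symm bd']
  · rw [hx ⟨b, hb⟩, Equiv.swap_apply_right, Equiv.swap_apply_left]
  · rw [hx ⟨d, hd⟩, Equiv.swap_apply_of_ne_of_ne ad'.symm bd'.symm, Equiv.swap_apply_right]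
  · intro x hxF xa xb xd
    have xa' : (⟨x, hxF⟩ : Fx K Ω) ≠ ⟨a, ha⟩ := fun e => xa (congrArg Subtype.val e)
    have xb' : (⟨x, hxF⟩ : Fx K Ω) ≠ ⟨b, hb⟩ := fun e => xb (congrArg Subtype.val e)
    have xd' : (⟨x, hxF⟩ : Fx K Ω) ≠ ⟨d, hd⟩ := fun e => xd (congrArg Subtype.val e)
    rw [hx ⟨x, hxF⟩, Equiv.swap_apply_of_ne_of_ne xa' xb', Equiv.swap_apply_of_ne_of_ne xa' xd']

theorem CE.false (c : CE K Ω) : False := by
  classical
  have h4 := c.t4
  have hF := c.four_le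
  let _ : Fintype (Fx K Ω) := Fintype.ofFinite _
  have hcard : Fintype.card (Fx K Ω) = (Fx K Ω).ncard := by
    rw [← Nat.card_eq_fintype_card, Nat.card_coe_set_eq]
  by_cases ha : alternatingGroup (Fx K Ω) ≤ (nHom K Ω).range
  · exact c.fiveC (cyc_of_alt ha)
  refine c.fiveA h4 ?_
  intro n hn W hW hs hfix x hx
  by_contra hne
  apply ha
  refine boch (u := nHom K Ω ⟨n, hn⟩) (c.range_t4 h4) (by omega) ⟨_, rfl⟩ ?_ ?_
  · intro e
    apply hne
    have := nHom_apply K ⟨n, hn⟩ ⟨x, hx⟩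
    rw [e] at this
    exact this.symm
  · have hle : (nHom K Ω ⟨n, hn⟩).support.card ≤ W.ncard := by
      rw [← Set.ncard_coe_finset, ← Set.ncard_image_of_injective _ Subtype.val_injective]
      refine Set.ncard_le_ncard ?_ (Set.toFinite _)
      rintro _ ⟨y, hy, rfl⟩
      by_contra hyW
      have hy' := Equiv.Perm.mem_support.mp (Finset.mem_coe.mp hy)
      exact hy' (Subtype.ext (hfix y y.2 hyW))
    rw [hcard]
    unfold Sm at hs ⊢
    omega

theorem th (n : ℕ) : Th.{u, v} n := by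
  induction n using Nat.strong_induction_on with
  | _ n ih =>
    intro G _ _ Ω _ _ K hn hK ht hF
    subst hn
    have hI : IH K Ω := ih_of_th ih hK
    by_cases hp : IsPreprimitive G Ω
    · refine ⟨?_, fun h1 => prim_one hK hI hF h1⟩
      by_contra h0
      exact (prim_zero hK hI hF (by omega)).false
    · have := imp ih hK hF hp
      exact ⟨by omega, fun h1 => by omega⟩

end Cfsg.Agent.PrF
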