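import Cfsg.Agent.PrF.Dd

/-!
The third moment.  Read `PrF/Defs` and the signatures of `PrF/Bas`, `PrF/Dd`.  `F = Fx K Ω`, `h = #F = #Fᶜ`, `x g = #(F ∩ g • F)`, so
`#(F ∩ g • Fᶜ) = h - x g`.
-/

namespace Cfsg.Agent.PrF
open MulAction Subgroup
open scoped Pointwise

universe u v

variable {G : Type u} [Group G] [Finite G] {Ω : Type v} [MulAction G Ω] [Finite Ω] {K R : Subgroup G}

omit [Finite G] in
private theorem mo_sum [Fintype G] (F B : Set Ω) :
    ∑ g : G, (F ∩ g • B).ncard = ∑ a ∈ (Set.toFinite F).toFinset, {g : G | g • a ∈ B}.ncard := by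
  classical
  have h1 : ∀ g : G, (F ∩ g • B).ncard = ∑ a ∈ (Set.toFinite F).toFinset, if g⁻¹ • a ∈ B then 1 else 0 := fun g => by
    rw [← Finset.card_filter, ← Set.ncard_coe_finset]
    congr 1
    ext a
    simp [Set.mem_smul_set_iff_inv_smul_mem]
  simp only [h1]
  rw [Finset.sum_comm]
  refine Finset.sum_congr rfl fun a _ => ?_
  rw [← Equiv.sum_comp (Equiv.inv G)]
  simp only [Equiv.inv_apply, inv_inv]
  rw [← Finset.card_filter, ← Set.ncard_coe_finset]
  congr 1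
  ext g
  simp

/-- PROOF.  Count pairs `(g, a)`, `a ∈ F`, `g⁻¹ • a ∈ B`: for fixed `a` the number of `g` depends only on `#B` (`cnt`, `g ↦ g⁻¹`). -/
theorem sum_one [Fintype G] [IsPretransitive G Ω] (F : Set Ω) {B C : Set Ω} (e : B.ncard = C.ncard) :
    ∑ g : G, (F ∩ g • B).ncard = ∑ g : G, (F ∩ g • C).ncard := by
  rw [mo_sum, mo_sum]
  refine Finset.sum_congr rfl fun a _ => ?_
  have : Nonempty Ω := ⟨a⟩
  refine Nat.eq_of_mul_eq_mul_right (Nat.card_pos (α := Ω)) ?_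
  rw [cnt, cnt, e]

private def moT (X Y : Set Ω) : Set (Fin 3 ↪ Ω) := {a | a 0 ∈ X ∧ a 1 ∈ X ∧ a 2 ∈ Y}

private theorem mo_card {X Y : Set Ω} (h : Disjoint X Y) : (moT X Y).ncard = X.ncard * (X.ncard - 1) * Y.ncard := by
  classical
  have h1 : X.offDiag.ncard = X.ncard * (X.ncard - 1) := by
    obtain ⟨s, rfl⟩ := (Set.toFinite X).exists_finset_coe
    rw [← Finset.coe_offDiag, Set.ncard_coe_finset, Set.ncard_coe_finset, Finset.offDiag_card, Nat.mul_sub_one]
  rw [← h1, ← Set.ncard_prod]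
  refine Set.ncard_congr (fun a _ => ((a 0, a 1), a 2)) (fun a ha => ⟨⟨ha.1, ha.2.1, a.injective.ne (by decide)⟩, ha.2.2⟩)
    (fun a b _ _ e => ?_) ?_
  · simp only [Prod.mk.injEq] at e
    ext i
    fin_cases i
    exacts [e.1.1, e.1.2, e.2]
  · rintro ⟨⟨x, y⟩, z⟩ ⟨⟨hx, hy, n⟩, hz⟩
    have n1 : x ≠ z := fun e => Set.disjoint_left.1 h hx (e ▸ hz)
    have n2 : y ≠ z := fun e => Set.disjoint_left.1 h hy (e ▸ hz)
    have n0 : x ≠ y := n
    refine ⟨⟨![x, y, z], fun i j e => ?_⟩, ⟨hx, hy, hz⟩, rfl⟩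
    fin_cases i <;> fin_cases j <;> simp_all [eq_comm]

omit [Finite G] [Finite Ω] in
private theorem mo_inter (F B C : Set Ω) (g : G) : moT F F ∩ g • moT B C = moT (F ∩ g • B) (F ∩ g • C) := by
  ext a
  simp only [moT, Set.mem_inter_iff, Set.mem_smul_set_iff_inv_smul_mem, Set.mem_setOf_eq, Function.Embedding.smul_apply]
  tauto

/-- PROOF.  With `Λ = Fin 3 ↪ Ω` and `T X Y = {a : Λ | a 0 ∈ X ∧ a 1 ∈ X ∧ a 2 ∈ Y}`, of size `#X (#X - 1) #Y` for disjoint `X, Y`:
the left term counts the `a ∈ F³ := {a | ∀ i, a i ∈ F}` with `a ∈ g • T B C`, i.e. `F³ ∩ g • T B C = T (F ∩ g B) (F ∩ g C)`.  `sum_one` for the action on `Λ`. -/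
theorem sum_three [Fintype G] (ht : Kt G Ω 3) (F : Set Ω) {B C : Set Ω} (hd : Disjoint B C) (e : B.ncard = C.ncard) :
    ∑ g : G, (F ∩ g • B).ncard * ((F ∩ g • B).ncard - 1) * (F ∩ g • C).ncard =
      ∑ g : G, (F ∩ g • C).ncard * ((F ∩ g • C).ncard - 1) * (F ∩ g • B).ncard := by
  have : IsPretransitive G (Fin 3 ↪ Ω) := ht
  have h1 := sum_one (G := G) (moT F F) (B := moT B C) (C := moT C B) (by rw [mo_card hd, mo_card hd.symm, e])
  have h2 : ∀ g : G, Disjoint (F ∩ g • B) (F ∩ g • C) := fun g =>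
    (Set.disjoint_smul_set.2 hd).mono Set.inter_subset_right Set.inter_subset_right
  simpa only [mo_inter, mo_card (h2 _), mo_card (h2 _).symm] using h1

/-- PROOF.  `x g ≥ 1`, otherwise `g F ⊆ Fᶜ`, `g F = Fᶜ` (equal sizes), against `Prn.not_subset` with `O = Fᶜ`.  In `ℤ`, `sum_three` with `B = F`, `C = Fᶜ` says
`∑ x (h - x) (2 x - h) = 0`; each term is `≤ 0` (`x = h` if `g F = F`), so each vanishes: `2 x ≥ h` for all `g`.  `sum_one`: `∑ (2 x - h) = 0`, but the term `g = 1` is `h > 0`. -/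
theorem CE.mom (c : CE K Ω) (h : ∀ g : G, g • Fx K Ω ≠ Fx K Ω → 2 * (Fx K Ω ∩ g • Fx K Ω).ncard ≤ (Fx K Ω).ncard) : False := by
  classical
  have := Fintype.ofFinite G
  have h4 := c.four_le
  have hc := c.ncard_compl
  set F := Fx K Ω with hF
  have tr : IsPretransitive G Ω :=
    (is_one_pretransitive_iff (G := G) (α := Ω)).1 (c.t3.mono (by norm_num) (by rw [c.half, ← hF]; omega))
  have a1 : ∀ g : G, (F ∩ g • F).ncard + (F ∩ g • Fᶜ).ncard = F.ncard := fun g => by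
    rw [Set.smul_set_compl, ← Set.diff_eq, Set.ncard_inter_add_ncard_diff_eq_ncard]
  have a2 : ∀ g : G, 1 ≤ (F ∩ g • F).ncard := fun g => by
    rw [Nat.succ_le_iff, Set.ncard_pos, Set.nonempty_iff_ne_empty]
    intro e
    have h1 : g • F = Fᶜ := Set.eq_of_subset_of_ncard_le
      (Set.subset_compl_iff_disjoint_left.2 (Set.disjoint_iff_inter_eq_empty.2 e)) (by rw [hc, Set.ncard_smul_set])
    refine c.prn.not_subset (O := Fᶜ) (fun k hk x hx hx' => hx ?_) (Set.nonempty_compl.2 c.ne) disjoint_compl_left g h1.ge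
    simpa using inv_Fx k⁻¹ (inv_mem hk) _ hx'
  have a3 : ∀ g : G, (F ∩ g • Fᶜ).ncard = 0 ∨ (F ∩ g • F).ncard ≤ (F ∩ g • Fᶜ).ncard := fun g => by
    by_cases e : g • F = F
    · have := a1 g
      rw [e, Set.inter_self] at this
      omega
    · have := h g e
      have := a1 g
      omega
  have s3 := sum_three c.t3 F (B := F) (C := Fᶜ) disjoint_compl_right hc.symm
  have s1 := sum_one (G := G) F (B := F) (C := Fᶜ) hc.symm
  have key : ∀ x y : ℕ, y = 0 ∨ x ≤ y → x * (x - 1) * y ≤ y * (y - 1) * x := by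
    rintro x y (rfl | e)
    · simp
    · calc x * (x - 1) * y = x * y * (x - 1) := by ring
        _ ≤ x * y * (y - 1) := Nat.mul_le_mul_left _ (by omega)
        _ = _ := by ring
  have a4 : ∀ g : G, (F ∩ g • Fᶜ).ncard ≤ (F ∩ g • F).ncard := fun g => by
    have h1 := (Finset.sum_eq_sum_iff_of_le fun g _ => key _ _ (a3 g)).1 s3 g (Finset.mem_univ g)
    have h2 := a2 g
    generalize (F ∩ g • Fᶜ).ncard = y at *
    generalize (F ∩ g • F).ncard = x at *
    by_contra! n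
    have h3 : x * y * (x - 1) = x * y * (y - 1) := by linarith
    have := Nat.eq_of_mul_eq_mul_left (Nat.mul_pos (by omega) (by omega)) h3
    omega
  have h1 := (Finset.sum_eq_sum_iff_of_le fun g _ => a4 g).1 s1.symm 1 (Finset.mem_univ _)
  simp only [one_smul, Set.inter_compl_self, Set.ncard_empty, Set.inter_self] at h1
  omega

end Cfsg.Agent.PrF
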