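import Cfsg.Agent.PrF.Imp

/-!
The primitive case.  Read `PrF/Defs` and the signatures of `PrF/Bas`, `PrF/Dd`, `PrF/Imp`.  `F = Fx K Ω`, `α ∈ F`,
`R = fixingSubgroup G {α} ≥ K` (`le_fixing`), `Z = {α}ᶜ` is `R`-invariant, `dd K Z = dd K univ + 1` (`dd_compl`), no `R`-orbit in `Z` lies in `F` (`sub_not`).
-/

namespace Cfsg.Agent.PrF
open MulAction Subgroup
open scoped Pointwise

universe u v

variable {G : Type u} [Group G] [Finite G] {Ω : Type v} [MulAction G Ω] [Finite Ω] {K R : Subgroup G}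

omit [Finite G] [Finite Ω] in
theorem prim_fix {α : Ω} {g : G} : g ∈ fixingSubgroup G ({α} : Set Ω) ↔ g • α = α := by
  simp [mem_fixingSubgroup_iff]

/-- PROOF.  The graph `Adj x x' := ∃ g, g • α = x ∧ g • z = x'` is symmetric (use `g * s`), loopless, and every vertex `g • α` has the neighbours
`g • orb R z`.  `SimpleGraph.even_card_odd_degree_vertices`. -/
theorem parity [IsPretransitive G Ω] {α z : Ω} (hz : z ≠ α) {s : G} (h1 : s • α = z) (h2 : s • z = α) (hn : Odd (Nat.card Ω)) :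
    Even (orb (fixingSubgroup G ({α} : Set Ω)) z).ncard := by
  classical
  have := Fintype.ofFinite Ω
  let Γ : SimpleGraph Ω :=
    { Adj := fun x y => ∃ g : G, g • α = x ∧ g • z = y
      symm := ⟨by
        rintro _ _ ⟨g, rfl, rfl⟩
        exact ⟨g * s, by rw [mul_smul, h1], by rw [mul_smul, h2]⟩⟩
      loopless := ⟨by
        rintro _ ⟨g, rfl, e⟩
        exact hz ((smul_left_cancel_iff g).1 e)⟩ }
  by_contra ho
  have h3 := Γ.even_card_odd_degree_vertices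
  rw [Finset.filter_true_of_mem fun x _ => ?_, Finset.card_univ, ← Nat.card_eq_fintype_card] at h3
  · exact Nat.not_even_iff_odd.2 hn h3
  · obtain ⟨g, rfl⟩ := exists_smul_eq G α x
    have e : Γ.neighborSet (g • α) = g • orb (fixingSubgroup G ({α} : Set Ω)) z := by
      ext y
      constructor
      · rintro ⟨k, hk, rfl⟩
        exact ⟨_, ⟨g⁻¹ * k, prim_fix.2 (by rw [mul_smul, hk, inv_smul_smul]), rfl⟩, by
          simp only [mul_smul, smul_inv_smul]⟩
      · rintro ⟨_, ⟨k, hk, rfl⟩, rfl⟩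
        exact ⟨g * k, by rw [mul_smul, prim_fix.1 hk], mul_smul _ _ _⟩
    rw [← SimpleGraph.card_neighborSet_eq_degree, ← Nat.card_eq_fintype_card, Nat.card_coe_set_eq, e,
      Set.ncard_smul_set]
    exact Nat.not_even_iff_odd.1 ho

/-- If `R` is transitive on `Z` then `G` is 2-transitive. -/
theorem tr2_of [IsPretransitive G Ω] {α : Ω} (h : ∀ x ≠ α, ∀ y ≠ α, ∃ g ∈ fixingSubgroup G ({α} : Set Ω), g • x = y) :
    Tr2 (⊤ : Subgroup G) (Set.univ : Set Ω) := by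
  intro x _ y _ x' _ y' _ h1 h2
  obtain ⟨a, rfl⟩ := exists_smul_eq G x α
  obtain ⟨b, hb⟩ := exists_smul_eq G x' (a • x)
  obtain ⟨g, hg, e⟩ := h (a • y) (fun e => h1 ((smul_left_cancel_iff a).1 e).symm) (b • y')
    fun e => h2 ((smul_left_cancel_iff b).1 (hb.trans e.symm))
  exact ⟨b⁻¹ * g * a, trivial, by rw [mul_smul, mul_smul, prim_fix.1 hg, ← hb, inv_smul_smul],
    by rw [mul_smul, mul_smul, e, inv_smul_smul]⟩

/-- PROOF.  `n = 2 f + 1`.  `F` is nonempty (else `n = 1` and every point is fixed).  `dd K Z = 2`.  If `Z` is one orbit: `tr2_of`.  Otherwise take `y ∈ Z`,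
`Y = orb R y ≠ Z`; `dd K Y ≥ 1`, `dd K (Z \ Y) ≥ 1` (`IH.pos`), so both are `1`, `Z \ Y` is an orbit (`IH.eq_orb`); every `R`-orbit in `Z` has `dd = 1`, hence odd size.
`Tr2 R Y` and `exists_two` give `t` swapping `x ≠ x'` in `Y`; `g • x = α`, `z = g • x'`, `s = g t g⁻¹`; `parity`. -/
theorem prim_one [IsPreprimitive G Ω] (h : Prn K) (ih : IH K Ω) (hF : Fx K Ω ≠ Set.univ) (h1 : dd K (Set.univ : Set Ω) = 1) :
    Tr2 (⊤ : Subgroup G) (Set.univ : Set Ω) := by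
  have hn := dd_univ (Ω := Ω) K
  rw [h1] at hn
  obtain ⟨α, hα⟩ : (Fx K Ω).Nonempty := by
    by_contra! e
    rw [e, Set.ncard_empty] at hn
    have := (Nat.card_eq_one_iff_unique.1 (show Nat.card Ω = 1 by omega)).1
    exact hF (Set.eq_univ_of_forall fun x k _ => Subsingleton.elim _ _)
  have hS : {α} ⊆ Fx K Ω := Set.singleton_subset_iff.2 hα
  have hK := le_fixing hS
  have hZ := inv_compl_fixing (G := G) ({α} : Set Ω)
  have hu : ({α}ᶜ : Set Ω) ≠ Set.univ := fun e => (e ▸ Set.mem_univ α : α ∈ ({α}ᶜ : Set Ω)) rfl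
  have hO : ∀ x ∈ ({α}ᶜ : Set Ω), ¬ orb (fixingSubgroup G ({α} : Set Ω)) x ⊆ Fx K Ω :=
    fun x hx => sub_not h hF hα hx
  have h2 := dd_compl hS
  rw [h1, Set.ncard_singleton] at h2
  by_cases h3 : ∀ y ∈ ({α}ᶜ : Set Ω), orb (fixingSubgroup G ({α} : Set Ω)) y = {α}ᶜ
  · exact tr2_of fun x hx y hy => (h3 x hx).ge hy
  exfalso
  push Not at h3
  obtain ⟨y, hy, h3⟩ := h3
  have le := hZ.orb_subset hy
  have hY := tr_orb (fixingSubgroup G ({α} : Set Ω)) y
  have h4 := ih.orb hK hZ hu hy (hO y hy)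
  have hu' : {α}ᶜ \ orb (fixingSubgroup G ({α} : Set Ω)) y ≠ Set.univ := fun e =>
    hu (Set.eq_univ_of_univ_subset (e ▸ Set.diff_subset))
  have h5 := ih.pos hK (hZ.diff hY.1) hu' (fun x hx => hO x hx.1)
    (Set.diff_nonempty.2 fun e => h3 (le.antisymm e))
  have h6 := dd_diff K le
  have h41 := h4.1
  have h7 : ∀ w ∈ ({α}ᶜ : Set Ω), dd K (orb (fixingSubgroup G ({α} : Set Ω)) w) = 1 := fun w hw => by
    by_cases e : w ∈ orb (fixingSubgroup G ({α} : Set Ω)) y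
    · rw [orb_eq e]; omega
    · rw [ih.eq_orb hK (hZ.diff hY.1) hu' (fun x hx => hO x hx.1) (by omega) ⟨hw, e⟩]; omega
  obtain ⟨x, hx, x', hx', ne⟩ := exists_two (hY.1.mono hK) (hO y hy)
  obtain ⟨t, -, t1, t2⟩ := h4.2 (h7 y hy) x hx x' hx' x' hx' x hx ne ne.symm
  obtain ⟨g, hg⟩ := exists_smul_eq G x α
  have hz : g • x' ≠ α := fun e => ne ((smul_left_cancel_iff g).1 (hg.trans e.symm))
  obtain ⟨c, hc⟩ := parity hz (s := g * t * g⁻¹) (by rw [← hg, mul_smul, mul_smul, inv_smul_smul, t1])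
    (by rw [← hg, mul_smul, mul_smul, inv_smul_smul, t2]) ⟨(Fx K Ω).ncard, by omega⟩
  have h8 := h7 _ hz
  rw [dd, hc] at h8
  omega

/-- PROOF.  `Ω` is nonempty, so `F` is nonempty (`dd_univ`).  `Z` is nonempty, `1 ≤ dd K Z = dd K univ + 1 ≤ 1`.  So `dd K univ = 0`, `Z` is an orbit with `dd = 1`,
`Tr2 R Z`.  3-transitivity: `kt_of`, move the first points of both triples to `α`. -/
theorem prim_zero [IsPreprimitive G Ω] (h : Prn K) (ih : IH K Ω) (hF : Fx K Ω ≠ Set.univ) (h0 : dd K (Set.univ : Set Ω) ≤ 0) :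
    CE K Ω := by
  have hn := dd_univ (Ω := Ω) K
  obtain ⟨y, hy⟩ := (Set.ne_univ_iff_exists_notMem _).1 hF
  obtain ⟨α, hα⟩ : (Fx K Ω).Nonempty := by
    by_contra! e
    rw [e, Set.ncard_empty] at hn
    have : Nonempty Ω := ⟨y⟩
    have := Nat.card_pos (α := Ω)
    omega
  have hS : {α} ⊆ Fx K Ω := Set.singleton_subset_iff.2 hα
  have hK := le_fixing hS
  have hZ := inv_compl_fixing (G := G) ({α} : Set Ω)
  have hu : ({α}ᶜ : Set Ω) ≠ Set.univ := fun e => (e ▸ Set.mem_univ α : α ∈ ({α}ᶜ : Set Ω)) rfl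
  have hO : ∀ x ∈ ({α}ᶜ : Set Ω), ¬ orb (fixingSubgroup G ({α} : Set Ω)) x ⊆ Fx K Ω :=
    fun x hx => sub_not h hF hα hx
  have h2 := dd_compl hS
  rw [Set.ncard_singleton] at h2
  have hy' : y ∈ ({α}ᶜ : Set Ω) := fun e => hy (hS e)
  have h3 := ih.pos hK hZ hu hO ⟨y, hy'⟩
  have h4 := ih.orb hK hZ hu hy' (hO y hy')
  rw [ih.eq_orb hK hZ hu hO (by omega) hy'] at h4
  refine ⟨h, ih, hF, by omega, kt_of fun a b ha hb => ?_⟩
  obtain ⟨g, hg⟩ := exists_smul_eq G (a 0) α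
  obtain ⟨k, hk⟩ := exists_smul_eq G (b 0) α
  have ga : ∀ i j, g • a i = g • a j → i = j := fun i j e => ha ((smul_left_cancel_iff g).1 e)
  have kb : ∀ i j, k • b i = k • b j → i = j := fun i j e => hb ((smul_left_cancel_iff k).1 e)
  obtain ⟨r, hr, r1, r2⟩ := h4.2 (by omega) (g • a 1) (fun e => absurd (ga _ _ (hg.trans e.symm)) (by decide))
    (g • a 2) (fun e => absurd (ga _ _ (hg.trans e.symm)) (by decide))
    (k • b 1) (fun e => absurd (kb _ _ (hk.trans e.symm)) (by decide))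
    (k • b 2) (fun e => absurd (kb _ _ (hk.trans e.symm)) (by decide))
    (fun e => absurd (ga _ _ e) (by decide)) (fun e => absurd (kb _ _ e) (by decide))
  refine ⟨k⁻¹ * r * g, fun i => ?_⟩
  rw [mul_smul, mul_smul, inv_smul_eq_iff]
  fin_cases i
  exacts [(congrArg _ hg).trans ((prim_fix.1 hr).trans hk.symm), r1, r2]

end Cfsg.Agent.PrF
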